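import Cfsg.Agent.H5.FS
import Cfsg.Agent.H5.Kernel
import Cfsg.Agent.H19.Aut
import Cfsg.Agent.H1.Solv2
import Cfsg.Agent.S4464

/-! Average character degree above two (`Acd.Big`): passes up from quotients (`Big.of_surj`), holds for non-abelian simple
groups (`big_simple`) and for Frobenius-type groups (`big_frob`, `big_frob'`); degrees divisible by a Frobenius complement
(`card_dvd_deg`). -/

set_option autoImplicit false
set_option linter.unusedSectionVars false

namespace H1.Acd
open Subgroup Cfsg H5 H18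
open scoped commutatorElement

/-- the average degree of the irreducible characters is larger than two -/
def Big (H : Type*) [Group H] [Finite H] : Prop :=
  (commutator H).index < ∑ χ : IrrCharacter H, (charDegree (χ : H → ℂ) - 2)

variable {H K : Type*} [Group H] [Finite H] [Group K] [Finite K]

theorem deg_one_iff (χ : IrrCharacter H) : charDegree (χ : H → ℂ) = 1 ↔ (χ : H → ℂ) 1 = 1 := by
  rw [← χ.2.coe_charDegree, Nat.cast_eq_one]

theorem card_lin : (Finset.univ.filter fun χ : IrrCharacter H => charDegree (χ : H → ℂ) = 1).card = (commutator H).index := by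
  classical
  rw [← card_linear_irr, Nat.card_eq_fintype_card, Fintype.card_subtype]
  exact congrArg Finset.card (Finset.filter_congr fun χ _ => deg_one_iff χ)

theorem not_big (h : (∑ᶠ χ : IrrCharacter H, charDegree (χ : H → ℂ)) ≤ 2 * Nat.card (IrrCharacter H)) : ¬ Big H := by
  classical
  rw [finsum_eq_sum_of_fintype, Nat.card_eq_fintype_card] at h
  have e : ∑ χ : IrrCharacter H, (charDegree (χ : H → ℂ) + if charDegree (χ : H → ℂ) = 1 then 1 else 0) =
      ∑ χ : IrrCharacter H, ((charDegree (χ : H → ℂ) - 2) + 2) := Finset.sum_congr rfl fun χ _ => by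
    have := χ.2.charDegree_pos
    split_ifs <;> omega
  rw [Finset.sum_add_distrib, Finset.sum_add_distrib, Finset.sum_boole, Nat.cast_id, card_lin, Finset.sum_const,
    Finset.card_univ, smul_eq_mul] at e
  unfold Big
  omega

theorem card_hom : Nat.card (H →* ℂˣ) = (commutator H).index := by
  rw [← card_linear_irr]
  refine Nat.card_congr (Equiv.ofBijective (fun l => ⟨⟨fun g => (l g : ℂ), isIrrCharacter_hom l⟩, by simp⟩) ⟨fun a b e => ?_, fun χ => ?_⟩)
  · ext g
    exact congrFun (congrArg (fun χ => (χ.1.1 : H → ℂ)) e) g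
  · obtain ⟨l, hl⟩ := χ.1.2.isCharacter.exists_hom_of_apply_one χ.2
    exact ⟨l, Subtype.ext (Subtype.ext hl.symm)⟩

theorem Big.of_surj (f : H →* K) (hf : Function.Surjective f) (h : Big K) : Big H := by
  classical
  have fin : ∀ (X : Type _) [Group X] [Finite X], Finite (X →* ℂˣ) := fun X _ _ =>
    Nat.finite_of_card_ne_zero (card_hom (H := X) ▸ index_ne_zero_of_finite)
  have := fin H
  let res : (H →* ℂˣ) →* (f.ker →* ℂˣ) := MonoidHom.mk' (fun l => l.comp f.ker.subtype) fun _ _ => rfl
  have k1 : Nat.card res.ker ≤ (commutator K).index := by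
    rw [← card_hom]
    have : Finite (K →* ℂˣ) := Nat.finite_of_card_ne_zero (card_hom (H := K) ▸ index_ne_zero_of_finite)
    refine Nat.card_le_card_of_injective (fun l => f.liftOfSurjective hf ⟨l.1, fun x hx =>
      show res l.1 ⟨x, hx⟩ = 1 by rw [MonoidHom.mem_ker.1 l.2]; rfl⟩) fun a b e => ?_
    have := (f.liftOfSurjective hf).injective e
    exact Subtype.ext (Subtype.mk.inj this)
  choose s hs using fun r : res.range => r.2
  let F : res.range × IrrCharacter K → IrrCharacter H := fun p =>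
    ⟨_, (p.2.2.comp_surjective f hf).mul_hom (s p.1)⟩
  have dg : ∀ p, charDegree (F p : H → ℂ) = charDegree (p.2 : K → ℂ) := fun p =>
    charDegree_eq_of_apply_one (by simp [F, p.2.2.coe_charDegree])
  have inj : Function.Injective F := fun a b e => by
    have ev : ∀ g, (a.2 : K → ℂ) (f g) * (s a.1 g : ℂ) = (b.2 : K → ℂ) (f g) * (s b.1 g : ℂ) := fun g =>
      congrFun (congrArg (fun χ => (χ.1 : H → ℂ)) e) g
    have e1 : (a.2 : K → ℂ) 1 = (b.2 : K → ℂ) 1 := by simpa using ev 1
    have e2 : a.1 = b.1 := by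
      refine Subtype.ext ?_
      rw [← hs, ← hs]
      ext x
      have := ev x
      rw [MonoidHom.mem_ker.1 x.2, e1] at this
      exact mul_left_cancel₀ b.2.2.apply_one_ne_zero this
    refine Prod.ext e2 (Subtype.ext (funext fun y => ?_))
    obtain ⟨g, rfl⟩ := hf y
    have := ev g
    rw [e2] at this
    exact mul_right_cancel₀ (Units.ne_zero _) this
  have := Fintype.ofFinite res.range
  have k2 : Nat.card res.range * ∑ χ : IrrCharacter K, (charDegree (χ : K → ℂ) - 2) ≤
      ∑ χ : IrrCharacter H, (charDegree (χ : H → ℂ) - 2) := by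
    calc _ = ∑ p : res.range × IrrCharacter K, (charDegree (F p : H → ℂ) - 2) := by
          simp only [dg, Fintype.sum_prod_type, Finset.sum_const, Finset.card_univ, smul_eq_mul, Nat.card_eq_fintype_card]
      _ = ∑ χ ∈ Finset.univ.map ⟨F, inj⟩, (charDegree (χ : H → ℂ) - 2) := by rw [Finset.sum_map]; rfl
      _ ≤ _ := Finset.sum_le_sum_of_subset (Finset.subset_univ _)
  have k3 : (commutator H).index = Nat.card res.range * Nat.card res.ker := by
    rw [← card_hom, card_eq_card_quotient_mul_card_subgroup res.ker,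
      Nat.card_congr (QuotientGroup.quotientKerEquivRange res).toEquiv]
  have k4 : 0 < Nat.card res.range := Nat.card_pos
  unfold Big at h ⊢
  calc _ ≤ Nat.card res.range * (commutator K).index := k3 ▸ Nat.mul_le_mul_left _ k1
    _ < _ := Nat.mul_lt_mul_of_pos_left h k4
    _ ≤ _ := k2

theorem Big.equiv (e : H ≃* K) (h : Big K) : Big H := h.of_surj e.toMonoidHom e.surjective

theorem big_of_deg (χ : IrrCharacter H) (h : (commutator H).index + 2 < charDegree (χ : H → ℂ)) : Big H :=
  lt_of_lt_of_le (by omega) (Finset.single_le_sum (f := fun χ : IrrCharacter H => charDegree (χ : H → ℂ) - 2)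
    (fun _ _ => Nat.zero_le _) (Finset.mem_univ χ))

theorem sum_sq : ∑ χ : IrrCharacter H, charDegree (χ : H → ℂ) ^ 2 = Nat.card H := by
  have := sum_sq_degrees (G := H)
  simp only [← fun χ : IrrCharacter H => χ.2.coe_charDegree] at this
  exact_mod_cast this

theorem card_dvd_deg {W C : Subgroup H} [W.Normal] (hC : ∀ c ∈ C, c ≠ 1 → W ⊓ C1(c) = ⊥) (χ : IrrCharacter H)
    (hk : ¬ W ≤ charKer (χ : H → ℂ)) : Nat.card C ∣ charDegree (χ : H → ℂ) := by
  classical
  have := Fintype.ofFinite H
  have z : ∀ c ∈ C, c ≠ 1 → (χ : H → ℂ) c = 0 := fun c hc c1 => by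
    have h := χ.2.sum_coset_eq_zero W hk c
    rw [Finset.sum_congr rfl fun (n : W) _ => show (χ : H → ℂ) (n * c) = (χ : H → ℂ) c by
      obtain ⟨y, -, hy⟩ := H19.exists_conj_of_reg (K := W) (g := c) (by simp [normalizer_eq_top]) (hC c hc c1) n.2
      rw [← hy]
      exact χ.2.isCharacter.isClassFunction _ _] at h
    simpa using h
  obtain ⟨n, hn⟩ := (χ.2.isCharacter.restrict C).exists_classInner_nat isIrrCharacter_one.isCharacter
  rw [classInner_one_right, Finset.sum_eq_single 1 (fun (c : C) _ c1 => z c c.2 (by simpa using c1)) (by simp),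
    inv_mul_eq_iff_eq_mul₀ (by simp)] at hn
  refine ⟨n, ?_⟩
  have : (charDegree (χ : H → ℂ) : ℂ) = Nat.card C * n := by rw [χ.2.coe_charDegree]; exact hn
  exact_mod_cast this

theorem big_frob' {W C : Subgroup H} [W.Normal] (hC : ∀ c ∈ C, c ≠ 1 → W ⊓ C1(c) = ⊥) (w1 : W ≠ ⊥)
    (h : (commutator H).index + 2 < Nat.card C) : Big H := by
  obtain ⟨w, hw, w1⟩ := exists_mem_ne_one' w1
  obtain ⟨χ, h1, h2⟩ := exists_irr_not_mem_charKer w1
  exact big_of_deg ⟨χ, h1⟩ (h.trans_le (Nat.le_of_dvd h1.charDegree_pos (card_dvd_deg hC ⟨χ, h1⟩ fun k => h2 (k hw))))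

theorem sum_sq_ker (W : Subgroup H) [W.Normal] [DecidablePred fun χ : IrrCharacter H => W ≤ charKer (χ : H → ℂ)] :
    ∑ χ ∈ Finset.univ.filter fun χ : IrrCharacter H => W ≤ charKer (χ : H → ℂ), charDegree (χ : H → ℂ) ^ 2 = W.index := by
  rw [index, ← sum_sq, Finset.sum_subtype (p := fun χ : IrrCharacter H => W ≤ charKer (χ : H → ℂ)) _ (by simp)]
  refine (Fintype.sum_equiv (irrQuotientEquiv W) _ _ fun χ => ?_).symm
  congr 1

theorem big_frob {W C : Subgroup H} [W.Normal] (hC : ∀ c ∈ C, c ≠ 1 → W ⊓ C1(c) = ⊥) (ht : W.index = Nat.card C)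
    (h : Nat.card C ^ 2 < (Nat.card W - 1) * (Nat.card C - 2)) : Big H := by
  classical
  have n3 : 2 < Nat.card C := by
    by_contra c
    rw [show Nat.card C - 2 = 0 by omega] at h
    omega
  obtain ⟨c, hc, c1⟩ := exists_mem_ne_one' (show C ≠ ⊥ from fun e => by simp [e] at n3)
  have l : W ≤ commutator H := fun w hw => by
    obtain ⟨y, -, hy⟩ := H19.exists_conj_of_reg (K := W) (g := c) (by simp [normalizer_eq_top]) (hC c hc c1) hw
    rw [show w = ⁅y, c⁆ by rw [commutatorElement_def, hy, mul_inv_cancel_right]]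
    exact commutator_mem_commutator (mem_top _) (mem_top _)
  have n1 : (commutator H).index ≤ Nat.card C := ht ▸ index_antitone l
  by_cases k : ∃ χ : IrrCharacter H, ¬ W ≤ charKer (χ : H → ℂ) ∧ charDegree (χ : H → ℂ) ≠ Nat.card C
  · obtain ⟨χ, k1, k2⟩ := k
    obtain ⟨e, he⟩ := card_dvd_deg hC χ k1
    have := χ.2.charDegree_pos
    refine big_of_deg χ ?_
    have : 2 ≤ e := by
      rcases e with _ | _ | e <;> simp_all
    nlinarith
  push Not at k
  have s := Finset.sum_filter_add_sum_filter_not Finset.univ (fun χ : IrrCharacter H => W ≤ charKer (χ : H → ℂ))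
    fun χ => charDegree (χ : H → ℂ) ^ 2
  set T := Finset.univ.filter fun χ : IrrCharacter H => ¬ W ≤ charKer (χ : H → ℂ)
  rw [sum_sq_ker, sum_sq, Finset.sum_congr rfl fun χ (h : χ ∈ T) => by rw [k χ (Finset.mem_filter.1 h).2],
    Finset.sum_const, smul_eq_mul, ← card_mul_index W, ht] at s
  have s2 : T.card * (Nat.card C - 2) ≤ ∑ χ : IrrCharacter H, (charDegree (χ : H → ℂ) - 2) := by
    rw [← smul_eq_mul, ← Finset.sum_const,
      Finset.sum_congr rfl fun χ (h : χ ∈ T) => show Nat.card C - 2 = charDegree (χ : H → ℂ) - 2 by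
        rw [k χ (Finset.mem_filter.1 h).2]]
    exact Finset.sum_le_sum_of_subset (Finset.subset_univ _)
  have s3 : Nat.card W - 1 = T.card * Nat.card C := by
    have : Nat.card W = 1 + T.card * Nat.card C := Nat.eq_of_mul_eq_mul_right (show 0 < Nat.card C by omega) (by
      rw [← s]; ring)
    omega
  refine n1.trans_lt (lt_of_lt_of_le (Nat.lt_of_mul_lt_mul_right (a := Nat.card C) ?_) s2)
  rw [s3] at h
  nlinarith

theorem big_simple [IsSimpleGroup H] (hn : ¬ IsMulCommutative H) : Big H := by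
  by_contra c
  have ns : ¬ Group.IsSolvable H := fun k => hn ⟨⟨IsSimpleGroup.comm_iff_isSolvable.2 k⟩⟩
  have t : commutator H = ⊤ := (inferInstance : (commutator H).Normal).eq_bot_or_eq_top.resolve_left fun e =>
    hn ((commutator_eq_bot_iff H).1 e)
  obtain ⟨p, hp, p5, hd⟩ : ∃ p : ℕ, p.Prime ∧ 3 < p ∧ p ∣ Nat.card H := by
    by_contra! k
    refine ns (solv_top_iff.1 (solv_of_two_primes Nat.prime_two Nat.prime_three fun r hr hd => ?_))
    have := hr.two_le
    have : ¬ 3 < r := fun c => k r hr c (by simpa using hd)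
    simp only [Set.mem_insert_iff, Set.mem_singleton_iff]
    omega
  obtain ⟨P, n, ab, hP, hi⟩ := Cfsg.Agent.S4464.result (G := H) p hp fun χ => by
    by_contra! k
    exact c (big_of_deg χ (by rw [t, index_top]; omega))
  rcases n.eq_bot_or_eq_top with e | e
  · exact hi (by rwa [e, index_bot])
  · exact hn ⟨⟨fun a b => ab a (e ▸ mem_top _) b (e ▸ mem_top _)⟩⟩

end H1.Acd
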