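import Cfsg.Agent.H1.Acd1
import Cfsg.Agent.H1.BGCop
import Cfsg.Agent.H10.PSL2Sub
import Cfsg.Agent.H13.SzModel
import Cfsg.Agent.H13.SzLocal
import Cfsg.Agent.H9.MS2

/-! Proper subgroups of large average character degree (`Acd.Bad`): the ambient Frobenius criterion `big_amb`, the Borel
subgroup of `PSL₂(q)` (`psl_borel`), `bad_psl`, `bad_L33`, `bad_sz`, and modules (`bad_module`, `bad_eight`). -/

set_option autoImplicit false
set_option linter.unusedSectionVars false

namespace H1.Acd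
open Subgroup Cfsg H5 H18 Matrix
open scoped commutatorElement MatrixGroups

variable {G Q : Type*} [Group G] [Finite G] [Group Q] [Finite Q] {W C V : Subgroup G} {x y t : G}

/-- some proper subgroup has average character degree above two -/
def Bad (G : Type*) [Group G] [Finite G] : Prop := ∃ H : Subgroup G, H ≠ ⊤ ∧ Big H

theorem Bad.of_surj (f : G →* Q) (hf : Function.Surjective f) (h : Bad Q) : Bad G := by
  obtain ⟨H, h1, h2⟩ := h
  exact ⟨H.comap f, fun e => h1 (comap_injective hf (e.trans (comap_top _).symm)),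
    h2.of_surj _ (f.subgroupComap_surjective_of_surjective H hf)⟩

theorem Bad.equiv (e : G ≃* Q) (h : Bad Q) : Bad G := h.of_surj e.toMonoidHom e.surjective

theorem reg_sub {H : Subgroup G} (h : Semireg W C) : Semireg (W.subgroupOf H) (C.subgroupOf H) := fun c hc c1 =>
  eq_bot_iff.2 fun w hw => Subtype.ext (eq_one_of_eq_bot (h c hc fun e => c1 (Subtype.ext e))
    (mem_inf.2 ⟨hw.1, mem_C1.2 (congrArg Subtype.val (mem_C1.1 hw.2))⟩))

theorem big_amb (hN : C ≤ N(W)) (hC : Semireg W C) (h : Nat.card C ^ 2 < (Nat.card W - 1) * (Nat.card C - 2)) :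
    Big (C ⊔ W : Subgroup G) := by
  have : (W.subgroupOf (C ⊔ W)).Normal := normal_subgroupOf_of_le_normalizer (sup_le hN le_N)
  refine big_frob (reg_sub hC) ?_ (by rwa [H18.card_subgroupOf le_sup_left, H18.card_subgroupOf le_sup_right])
  have := card_mul_relIndex' (A := W) (B := C)
  rw [inf_eq_bot_of_coprime (hC.coprime hN), card_bot, one_mul] at this
  rw [H18.card_subgroupOf le_sup_left, ← this, ← relIndex_sup_of_norm hN, relIndex]

theorem bad_simple [IsSimpleGroup G] (hN : C ≤ N(W)) (hC : Semireg W C)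
    (h : Nat.card C ^ 2 < (Nat.card W - 1) * (Nat.card C - 2)) : Bad G := by
  refine ⟨_, fun e => ?_, big_amb hN hC h⟩
  have n : W.Normal := norm_top_iff.1 (e ▸ sup_le hN le_N)
  rcases n.eq_bot_or_eq_top with k | k
  · simp [k] at h
  · have := inf_eq_bot_of_coprime (hC.coprime hN)
    rw [k, top_inf_eq] at this
    simp [this] at h

open H10 in
theorem psl_borel {F : Type*} [Field F] [Fintype F] {m : ℕ} (hm : Fintype.card F = 2 * m + 1) :
    ∃ (W : Subgroup PSL(2, F)) (c : PSL(2, F)), Nat.card W = 2 * m + 1 ∧ orderOf c = m ∧ c ∈ N(W) ∧ Semireg W (zpowers c) := by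
  obtain ⟨a, ha⟩ := IsCyclic.exists_generator (α := Fˣ)
  have hoa : orderOf a = m * 2 := by
    rw [orderOf_eq_card_of_forall_mem_zpowers ha, Nat.card_units, Nat.card_eq_fintype_card]
    omega
  let u : Multiplicative F →* PSL(2, F) := MonoidHom.mk' (fun b => π F (slMk 1 b.toAdd 0 1 (by simp))) fun b c => by
    rw [← map_mul, slMk_mul]
    congr 1
    simp [slMk_inj, add_comm]
  have ui : ∀ b, u b = 1 → b = 1 := fun b hb => by
    rcases (π_eq_one_iff _).1 hb with e | e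
    · rw [← slMk_one, slMk_inj] at e
      exact e.2.1
    · rw [← slMk_one, slMk_neg, slMk_inj] at e
      simpa using e.2.1
  let d : Fˣ →* PSL(2, F) := MonoidHom.mk' (fun s => π F (slMk (s : F) 0 0 (s : F)⁻¹ (by simp))) fun b c => by
    rw [← map_mul, slMk_mul]
    congr 1
    simp [slMk_inj, mul_comm]
  have cj : ∀ (s : Fˣ) b, d s * u b = u (.ofAdd ((s : F) ^ 2 * b.toAdd)) * d s := fun s b => by
    refine (map_mul (π F) _ _).symm.trans (Eq.trans ?_ (map_mul (π F) _ _))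
    rw [slMk_mul, slMk_mul]
    congr 1
    simp only [slMk_inj, toAdd_ofAdd]
    refine ⟨by simp, ?_, by simp, by simp⟩
    field_simp
    simp
  have d1 : ∀ s : Fˣ, d s = 1 ↔ s ^ 2 = 1 := fun s => by
    refine (π_eq_one_iff _).trans ?_
    rw [← slMk_one, slMk_neg, slMk_inj, slMk_inj, Units.ext_iff, Units.val_pow_eq_pow_val, Units.val_one, sq_eq_one_iff]
    refine ⟨fun h => h.imp And.left And.left, ?_⟩
    rintro (h | h) <;> simp [h]
  refine ⟨u.range, d a, ?_, Nat.dvd_antisymm ?_ (Nat.dvd_of_mul_dvd_mul_right two_pos ?_), mem_N_of_finite ?_, ?_⟩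
  · rw [← Nat.card_congr (MonoidHom.ofInjective ((injective_iff_map_eq_one u).2 ui)).toEquiv]
    simp [hm]
  · rw [orderOf_dvd_iff_pow_eq_one, ← map_pow, d1, ← pow_mul, ← hoa, pow_orderOf_eq_one]
  · rw [← hoa, orderOf_dvd_iff_pow_eq_one, pow_mul, ← d1, map_pow, pow_orderOf_eq_one]
  · rintro _ ⟨b, rfl⟩
    exact ⟨_, by rw [cj, mul_inv_cancel_right]⟩
  · rintro _ ⟨k, rfl⟩ c1
    refine eq_bot_iff.2 ?_
    rintro _ ⟨⟨b, rfl⟩, h⟩
    have h := mem_C1.1 h
    simp only [← map_zpow] at h c1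
    rw [cj, mul_left_inj, eq_comm, ← mul_inv_eq_one, ← map_inv, ← map_mul] at h
    have h : ((a ^ k : Fˣ) : F) ^ 2 * b.toAdd + -b.toAdd = 0 := congrArg Multiplicative.toAdd (ui _ h)
    have : b.toAdd = 0 := by
      by_contra b0
      refine c1 ((d1 _).2 (Units.ext (mul_right_cancel₀ b0 ?_)))
      simpa [add_neg_eq_zero] using h
    rw [show b = 1 from this, map_one]
    exact one_mem _

theorem bad_psl {F : Type*} [Field F] [Fintype F] (ho : Odd (Fintype.card F)) (h : 9 < Fintype.card F)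
    [IsSimpleGroup PSL(2, F)] : Bad PSL(2, F) := by
  obtain ⟨m, hm⟩ := ho
  obtain ⟨W, c, h1, h2, h4, h5⟩ := psl_borel hm
  refine bad_simple (zpowers_le.2 h4) h5 ?_
  obtain ⟨k, rfl⟩ := Nat.exists_eq_add_of_le' (show 5 ≤ m by omega)
  rw [Nat.card_zpowers, h1, h2, Nat.add_sub_cancel, show k + 5 - 2 = k + 3 by omega]
  nlinarith

theorem bad_sz (h : Lie.IsoSuzuki G) : Bad G := by
  obtain ⟨F, _, _, m, hm, hF, ⟨e⟩⟩ := h
  have : H13.Sz.IsSz F m := ⟨hm, hF⟩
  refine Bad.equiv (e.trans (H13.Sz.lieEquiv (F := F) (m := m)).symm) (bad_simple (W := H13.Sz.U F m) (C := H13.Sz.H F m)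
    (H13.Sz.normalizer_U (F := F) ▸ H13.Sz.H_le_B) (fun c hc c1 => eq_bot_iff.2 fun w hw => ?_) ?_)
  · by_contra w1
    obtain ⟨s, rfl⟩ := H13.Sz.mem_H.1 hc
    have := H13.Sz.h_mem_U_iff.1 (H13.Sz.centralizer_u_le hw.1 w1 (mem_C1_comm.1 hw.2))
    exact c1 (by rw [this]; exact map_one (H13.Sz.hHom F m))
  · rw [H13.Sz.card_U, H13.Sz.card_H]
    obtain ⟨k, hk⟩ := Nat.exists_eq_add_of_le (H13.Sz.eight_le_card (F := F))
    rw [hk, show 8 + k - 1 = k + 7 by omega, show k + 7 - 2 = k + 5 by omega,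
      show (8 + k) ^ 2 - 1 = k ^ 2 + 16 * k + 63 from Nat.sub_eq_of_eq_add (by ring)]
    nlinarith

theorem reg_of_prime {k : ℕ} (hx : (orderOf x).Prime) (ht : (orderOf t).Prime) (h : t * x * t⁻¹ = x ^ k) (h1 : x ^ k ≠ x) :
    t ∈ N(zpowers x) ∧ Semireg (zpowers x) (zpowers t) := by
  refine ⟨mem_N_of_finite ?_, semireg_prime (by rwa [Nat.card_zpowers]) ?_⟩
  · rintro _ ⟨j, rfl⟩
    rw [← conj_zpow, h]
    exact zpow_mem (pow_mem (mem_zpowers x) k) j
  · refine (eq_bot_or_eq_of_prime (by rwa [Nat.card_zpowers]) inf_le_left).resolve_right fun e => h1 ?_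
    have := cent_iff.1 (e.ge.trans inf_le_right) x (mem_zpowers x) t (mem_zpowers t)
    rw [← h, ← this, mul_inv_cancel_right]

def x13 : SL(3, ZMod 3) := ⟨!![0, 0, 1; 1, 0, 1; 0, 1, 0], by decide⟩
def t3 : SL(3, ZMod 3) := ⟨!![1, 1, 1; 0, 1, 2; 0, 0, 1], by decide⟩

theorem bad_L33 [IsSimpleGroup G] (e : G ≃* PSL(3, ZMod 3)) : Bad G := by
  obtain ⟨f⟩ := H9.MSi.iso33
  have f := e.trans f.symm
  have := f.symm.isSimpleGroup
  have h1 : orderOf x13 = 13 := orderOf_eq_prime (p := 13) (hp := ⟨by norm_num⟩) (by decide) (by decide)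
  have h2 : orderOf t3 = 3 := orderOf_eq_prime (p := 3) (hp := ⟨by norm_num⟩) (by decide) (by decide)
  obtain ⟨h3, h4⟩ := reg_of_prime (x := x13) (t := t3) (k := 3) (by rw [h1]; norm_num) (by rw [h2]; norm_num)
    (mul_inv_eq_of_eq_mul (by decide)) (by decide)
  exact Bad.equiv f (bad_simple (zpowers_le.2 h3) h4 (by rw [Nat.card_zpowers, Nat.card_zpowers, h1, h2]; norm_num))

theorem exists_section (f : G →* Q) (hf : Function.Surjective f) (B : Subgroup Q)
    (hc : (Nat.card f.ker).Coprime (Nat.card B)) : ∃ σ : B →* G, ∀ b, f (σ b) = b := by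
  let g := f.subgroupComap B
  have hg : Function.Surjective g := f.subgroupComap_surjective_of_surjective B hf
  have k1 : g.ker = f.ker.subgroupOf (B.comap f) := by
    ext x
    exact Subtype.ext_iff
  have k2 : g.ker.index = Nat.card B := by rw [index_ker, MonoidHom.range_eq_top.2 hg, card_top]
  obtain ⟨D, hD⟩ := exists_right_complement'_of_coprime (N := g.ker) (by
    rwa [k2, k1, H18.card_subgroupOf (ker_le_comap f B)])
  have b : Function.Bijective (g.comp D.subtype) := by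
    rw [Nat.bijective_iff_injective_and_card, ← hD.symm.index_eq_card, k2, and_iff_left rfl, injective_iff_map_eq_one]
    exact fun a ha => Subtype.ext (disjoint_def.1 hD.disjoint ha a.2)
  let e := MulEquiv.ofBijective _ b
  exact ⟨((B.comap f).subtype.comp D.subtype).comp e.symm.toMonoidHom, fun b =>
    congrArg Subtype.val (e.apply_symm_apply b)⟩

theorem exists_lift (f : G →* Q) (hf : Function.Surjective f) (b : Q) (hc : (Nat.card f.ker).Coprime (orderOf b)) :
    ∃ y, f y = b ∧ orderOf y = orderOf b := by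
  obtain ⟨σ, hσ⟩ := exists_section f hf (zpowers b) (by rwa [Nat.card_zpowers])
  refine ⟨σ ⟨b, mem_zpowers b⟩, hσ _, ?_⟩
  rw [orderOf_injective σ fun u v e => Subtype.ext (by rw [← hσ, e, hσ]), orderOf_mk]

theorem bad_module (ns : ¬ Group.IsSolvable G) [n : V.Normal] {r s k : ℕ} (hV : Elem r V) (hr : r.Prime) (hs : s.Prime)
    (sr : s ≠ r) (hy : orderOf y = s ^ (k + 1)) (hz : y ^ s ^ k ∉ C(V))
    (ar : ∀ a e, 0 < e → r ^ a = s ^ (k + 1) * e + 1 → s ^ (k + 1) < e * (s ^ (k + 1) - 2)) : Bad G := by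
  have oz : orderOf (y ^ s ^ k) = s := by
    rw [orderOf_pow_of_dvd (pow_pos hs.pos k).ne' (hy ▸ pow_dvd_pow s k.le_succ), hy, pow_succ,
      Nat.mul_div_cancel_left _ (pow_pos hs.pos k)]
  have nV : ∀ A : Subgroup G, A ≤ N(V) := fun A => le_top.trans (norm_top_iff.2 n)
  have l : zpowers (y ^ s ^ k) ≤ zpowers y := zpowers_le.2 (pow_mem (mem_zpowers y) _)
  obtain ⟨j, hj⟩ := PiNat.eq_pow (hV.pi' hr) card_ne_zero'
  have cop : (Nat.card (zpowers (y ^ s ^ k))).Coprime (Nat.card V) := by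
    rw [Nat.card_zpowers, oz, hj]
    exact ((Nat.coprime_primes hs hr).2 sr).pow_right _
  have reg : Semireg ⁅V, zpowers (y ^ s ^ k)⁆ (zpowers y) := H18.semireg_of_prime fun X hX hp => by
    have := card_dvd_of_le hX
    rw [Nat.card_zpowers, hy] at this
    rw [cyc_zpowers.eq_of_card_eq hX l (by
      rw [Nat.card_zpowers, oz, (Nat.prime_dvd_prime_iff_eq hp hs).1 (hp.dvd_of_dvd_pow this)])]
    exact abel_comm_inf_cent hV.abel (nV _) cop
  have nW : zpowers y ≤ N(⁅V, zpowers (y ^ s ^ k)⁆) := norm_comm (nV _) (cyc_zpowers.norm_sub l le_N)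
  have lW : ⁅V, zpowers (y ^ s ^ k)⁆ ≤ V := norm_iff_comm_le'.1 (nV _)
  have w1 : ⁅V, zpowers (y ^ s ^ k)⁆ ≠ ⊥ := fun e =>
    hz (zpowers_le.1 (le_centralizer_iff.1 (commutator_eq_bot_iff_le_centralizer.1 e)))
  obtain ⟨a, ha⟩ := PiNat.eq_pow ((hV.pi' hr).of_le lW) card_ne_zero'
  obtain ⟨e, he⟩ := reg.dvd_pred nW
  have := one_lt_card w1
  refine ⟨_, fun e => ns (solv_top_iff.1 (e ▸ Solv.sup_norm abel_zpowers.solv (hV.sub' lW).abel.solv nW)),
    big_amb nW reg ?_⟩
  rw [Nat.card_zpowers, hy] at he ⊢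
  have := ar a e (Nat.pos_of_ne_zero (by rintro rfl; omega)) (by omega)
  rw [he, sq, mul_assoc]
  exact Nat.mul_lt_mul_of_pos_left this (pow_pos hs.pos _)

theorem big_amb' {H : Subgroup G} (hW : W ⊴ H) (hC : C ≤ H) (reg : Semireg W C) (w1 : W ≠ ⊥)
    (h : ⁅H, H⁆.relIndex H + 2 < Nat.card C) : Big H := by
  have := hW.subgroupOf_normal
  refine big_frob' (reg_sub reg) (fun e => w1 ?_) ?_
  · rw [← map_subgroupOf_eq_of_le hW.le, e, Subgroup.map_bot]
  · rwa [H18.card_subgroupOf hC, ← comap_map_eq_self_of_injective H.subtype_injective (commutator H), map_subtype_commutator]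

theorem bad_eight (ns : ¬ Group.IsSolvable G) {F : Type*} [Field F] [Fintype F] (hF : Fintype.card F = 7)
    (f : G →* PSL(2, F)) (hf : Function.Surjective f) (hV : Elem 2 f.ker) (hc : C(f.ker) ≤ f.ker) : Bad G := by
  obtain ⟨X, c, h1, h2, h3, h4⟩ := psl_borel (m := 3) hF
  obtain ⟨j, hj⟩ := PiNat.eq_pow (hV.pi' Nat.prime_two) card_ne_zero'
  obtain ⟨σ, hσ⟩ := exists_section f hf (zpowers c ⊔ X) (by
    rw [hj, ← card_mul_relIndex (le_sup_right (a := zpowers c)), relIndex_sup_of_norm (zpowers_le.2 h3), h1]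
    refine Nat.Coprime.pow_left _ (Nat.Coprime.mul_right (by norm_num) (Nat.Coprime.coprime_dvd_right
      (relIndex_dvd_card _ _) ?_))
    rw [Nat.card_zpowers, h2]
    norm_num)
  have si : Function.Injective σ := fun u v e => Subtype.ext (by rw [← hσ, e, hσ])
  obtain ⟨b, hb, b1⟩ := exists_mem_ne_one' (show X ≠ ⊥ from fun e => by simp [e] at h1)
  have p7 : (Nat.card X).Prime := by rw [h1]; norm_num
  have eX : zpowers b = X := (eq_bot_or_eq_of_prime p7 (zpowers_le.2 hb)).resolve_left (by simpa using b1)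
  obtain ⟨k, hk⟩ := (mem_powers_iff_mem_zpowers.2 (eX ▸ norm_iff.1 (zpowers_le.2 h3) c (mem_zpowers c) b hb) :
    c * b * c⁻¹ ∈ Submonoid.powers b)
  let x := σ ⟨b, mem_sup_right hb⟩
  let t := σ ⟨c, mem_sup_left (mem_zpowers c)⟩
  have ox : orderOf x = 7 := by rw [orderOf_injective σ si, orderOf_mk, ← Nat.card_zpowers, eX, h1]
  have ot : orderOf t = 3 := by rw [orderOf_injective σ si, orderOf_mk, h2]
  obtain ⟨k1, k2⟩ := reg_of_prime (x := x) (t := t) (k := k) (by rw [ox]; norm_num) (by rw [ot]; norm_num)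
    (by rw [← map_inv, ← map_mul, ← map_mul, ← map_pow]; exact congrArg σ (Subtype.ext hk.symm)) fun e => by
      rw [← map_pow] at e
      have e : b ^ k = b := congrArg Subtype.val (si e)
      refine b1 (eq_one_of_eq_bot (h4 c (mem_zpowers c) fun e => by simp [e] at h2) (mem_inf.2 ⟨hb, mem_C1.2 ?_⟩))
      exact (mul_inv_eq_iff_eq_mul.1 (hk.symm.trans e)).symm
  have nV : ∀ A : Subgroup G, A ≤ N(f.ker) := fun A => le_top.trans (norm_top_iff.2 inferInstance)
  have cop : Cop (zpowers x) f.ker := ⟨nV _, by rw [Nat.card_zpowers, ox, hj]; exact Nat.Coprime.pow_right _ (by norm_num),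
    .inl abel_zpowers.solv⟩
  have cop2 : Cop (zpowers t) (zpowers x) := ⟨zpowers_le.2 k1, by rw [Nat.card_zpowers, Nat.card_zpowers, ox, ot]; norm_num,
    .inl abel_zpowers.solv⟩
  set W := ⁅f.ker, zpowers x⁆ with hW
  have lW : W ≤ f.ker := norm_iff_comm_le'.1 (nV _)
  have n1 : zpowers x ≤ N(W) := norm_comm (nV _) le_N
  have n2 : zpowers t ≤ N(W) := norm_comm (nV _) (zpowers_le.2 k1)
  have n3 : zpowers t ≤ N(zpowers x ⊔ W) := norm_sup (zpowers_le.2 k1) n2
  have lx : zpowers x ≤ zpowers t ⊔ (zpowers x ⊔ W) := le_sup_of_le_right le_sup_left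
  have lw : W ≤ zpowers t ⊔ (zpowers x ⊔ W) := le_sup_of_le_right le_sup_right
  refine ⟨zpowers t ⊔ (zpowers x ⊔ W), fun e => ns (solv_top_iff.1 (e ▸ Solv.sup_norm abel_zpowers.solv
    (Solv.sup_norm abel_zpowers.solv (hV.sub' lW).abel.solv n1) n3)),
    big_amb' ⟨lw, sup_le n2 (sup_le n1 le_N)⟩ lx (semireg_prime (by rw [Nat.card_zpowers, ox]; norm_num)
      (abel_comm_inf_cent hV.abel cop.norm cop.cop)) (fun e => b1 ?_) ?_⟩
  · exact (hσ _).symm.trans (hc (zpowers_le.1 (le_centralizer_iff.1 (commutator_eq_bot_iff_le_centralizer.1 e))))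
  · have l : zpowers x ⊔ W ≤ ⁅zpowers t ⊔ (zpowers x ⊔ W), zpowers t ⊔ (zpowers x ⊔ W)⁆ := sup_le
      ((cop2.comm_eq_of_cent (k2.cent le_rfl fun e => by simp [zpowers_eq_bot.1 e] at ot)).ge.trans
        (commutator_mono lx le_sup_left)) (cop.comm_comm.ge.trans (commutator_mono lw lx))
    have := Nat.le_of_dvd (by rw [Nat.card_zpowers, ot]; norm_num) ((relIndex_dvd_of_le_left
      (zpowers t ⊔ (zpowers x ⊔ W)) l).trans ((relIndex_sup_of_norm n3).dvd.trans (relIndex_dvd_card _ _)))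
    rw [Nat.card_zpowers, ot] at this
    rw [Nat.card_zpowers, ox]
    omega

end H1.Acd
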