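import Cfsg.Agent.H4.RI3
import Cfsg.Agent.H21.RED

/-! Central Sylow `2`-intersections: `CA S A` (all intersections of the Sylow subgroup `S` with other Sylow subgroups lie in
`A ≤ C(S)`, `S ≰ A`), `CA.map`, `CA.main` (almost simple of Bender type if `F(G) = 1`), `CA.cent_odd`, `CA.pl1`. -/

set_option autoImplicit false
set_option linter.unusedSectionVars false
set_option linter.unusedVariables false

namespace H1.Ci
open Subgroup Cfsg H18 H4.Gs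
open H17 hiding Subn card_cj card_mul_relIndex cj cj_bot cj_cj_inv cj_fit cj_inf cj_inv_cj cj_mono cj_mul cj_one
  cj_sup conj_mem_cj elem_iff elem_zpowers fit_le fit_top le_phi mem_cj mim_cj mim_fit_le phi phi_le
open H22 (U1 ord2 sq1 ne1)
open scoped commutatorElement

universe u
variable {G : Type u} [Group G] [Finite G] {A B D E H K L M N O P Q R S T U V W X Y Z : Subgroup G}
  {a b c e g l s t u v w x y z : G}

theorem zc (hCI : ∀ S T : Sylow 2 G, S ≠ T → ∃ U : Sylow 2 G,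
      (S : Subgroup G) ⊓ (T : Subgroup G) ≤ (Subgroup.center ↥(U : Subgroup G)).map (U : Subgroup G).subtype)
    (hS : IsSyl 2 S ⊤) (hU : IsSyl 2 U ⊤) (m : y ∈ S) (hy : U ≤ C1(y)) : y ∈ C(S) := by
  by_contra n
  obtain ⟨T, hT, h1, h2⟩ := exists_syl_C1 (hall2 hS) (hall2 hU) hy
  obtain ⟨S, rfl⟩ := hS.exists_sylow_top
  obtain ⟨T, rfl⟩ := hT.exists_sylow_top Nat.prime_two
  obtain ⟨U, hU⟩ := hCI S T (by rintro rfl; exact n (le_C1_iff.1 h1))
  rw [H17.map_subtype_center, h2] at hU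
  have hU' := (hall_sylow_top Nat.prime_two U).of_le (cent_symm (hU.trans inf_le_right)) le_top
  have lt := H17.lt_normalizer_of_pgroup hS.pgroup (Q := S ⊓ C1(y))
    (lt_of_le_of_ne inf_le_left fun e => n (le_C1_iff.1 (e.ge.trans inf_le_right)))
  refine lt.not_ge (le_inf inf_le_left (le_trans ?_ (C_le_C1 (mem_inf.2 ⟨m, C1_self⟩))))
  exact (H17.Subn.of_normal C_le_N N_le_N_C).pgroup_le (((syl2 (hall_sylow_top Nat.prime_two U)).mono
    (hU'.le.trans C_le_N) le_top).not_dvd_relIndex hU'.le) hS.pgroup.to_inf_left inf_le_right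

/-- Sylow intersections lie in `A ≤ C(S)` -/
structure CA (S A : Subgroup G) : Prop where
  syl : IsSyl 2 S ⊤
  cen : A ≤ C(S)
  inter : ∀ T, IsSyl 2 T ⊤ → T ≠ S → S ⊓ T ≤ A
  nle : ¬ S ≤ A

theorem ca_of (hCI : ∀ S T : Sylow 2 G, S ≠ T → ∃ U : Sylow 2 G,
      (S : Subgroup G) ⊓ (T : Subgroup G) ≤ (Subgroup.center ↥(U : Subgroup G)).map (U : Subgroup G).subtype)
    (hS : IsSyl 2 S ⊤) (na : ¬ Abel S) : CA S C(S) := by
  refine ⟨hS, le_rfl, fun T hT n x hx => ?_, na⟩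
  obtain ⟨S', e⟩ := hS.exists_sylow_top
  obtain ⟨T, rfl⟩ := hT.exists_sylow_top
  obtain ⟨U, hU⟩ := hCI S' T (by rintro rfl; exact n e)
  rw [H17.map_subtype_center, e] at hU
  exact zc hCI hS (isSyl_sylow U) hx.1 (le_C1_iff.2 (hU hx).2)

theorem two_gen (b : BT L T U K) (na : ¬ Abel T) (hx : x ∈ T) (hy : y ∈ T)
    (h : T ≤ zpowers x ⊔ zpowers y ⊔ T ⊓ C(T)) : False := by
  have m : ⁅x, y⁆ ∈ ⁅T, T⁆ := commutator_mem_commutator hx hy
  have cU := BT.der_le b m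
  have n : T ≤ N(zpowers ⁅x, y⁆) := cent_norm (cent_symm (zpowers_le.2 (b.1.cent cU)))
  have l1 : zpowers x ⊔ zpowers y ≤ T := sup_le (zpowers_le.2 hx) (zpowers_le.2 hy)
  have k : ⁅T, T⁆ ≤ zpowers ⁅x, y⁆ := (abel_quo_iff n).1 (Abel.mono (by
    rw [mim_sup (l1.trans n) (inf_le_left.trans n), mim_sup (zpowers_le.2 (n hx)) (zpowers_le.2 (n hy)),
      mim_zpowers (n hx), mim_zpowers (n hy)]
    refine (abel_zpowers.sup abel_zpowers (zpowers_le.2 ?_)).sup (mim_cent (inf_le_right.trans (C_anti inf_le_left))) ?_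
    · rw [C_zpowers, mem_C1, ← commutatorElement_eq_one_iff_mul_comm, ← mfun_comm (n hx) (n hy)]
      exact cs_eq_one (mem_zpowers _)
    · rw [← mim_zpowers (n hx), ← mim_zpowers (n hy), ← mim_sup (zpowers_le.2 (n hx)) (zpowers_le.2 (n hy))]
      exact mim_cent (cent_symm (inf_le_right.trans (C_anti l1)))) (mim_mono h))
  have c1 : ⁅x, y⁆ ≠ 1 := fun e => na (comm_eq_bot_iff.1 (le_bot_iff.1 (by rwa [e, zpowers_one_eq_bot] at k)))
  obtain ⟨u, hu, u1, uc⟩ := b.1.exists_ne cU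
  obtain ⟨g, hg, rfl⟩ := b.1.trans _ cU c1 u hu u1
  exact ((H22.mem_zp_sq (b.1.memU.1 cU).2).1 (k (conj_mem_N (norm_comm le_rfl le_rfl (b.1.leK hg).2) m))).elim u1 uc

namespace CA
variable (h : CA S A)
include h

theorem map {Y : Type u} [Group Y] [Finite Y] {π : G →* Y} (sj : Function.Surjective π) (k : S ⊓ π.ker ≤ A) :
    CA (S.map π) ((S ⊓ A).map π) := by
  refine ⟨by have := h.syl.map π; rwa [map_top_of_surjective π sj] at this, ?_, fun T hT n => ?_, fun e => h.nle fun s hs => ?_⟩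
  · rintro _ ⟨a, ha, rfl⟩
    refine mem_C.2 ?_
    rintro _ ⟨s, hs, rfl⟩
    rw [← map_mul, ← map_mul, mem_C.1 (h.cen ha.2) s hs]
  · rintro _ ⟨⟨x, hx, rfl⟩, m⟩
    obtain ⟨T', a, b, c⟩ := syl_lift sj hT (pg_mem h.syl.pgroup hx) (zpowers_le.2 m)
    exact ⟨x, ⟨hx, h.inter T' a (fun e => n (c ▸ e ▸ rfl)) ⟨hx, b (mem_zpowers x)⟩⟩, rfl⟩
  · obtain ⟨a, ha, e⟩ := e ⟨s, hs, rfl⟩
    simpa using mul_mem ha.2 (k ⟨S.mul_mem (S.inv_mem ha.1) hs, by simp [MonoidHom.mem_ker, e]⟩)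

theorem norm (hx : x ∈ S) (n : x ∉ A) (hg : x ∈ cj g S) : g ∈ N(S) :=
  mem_N_iff_cj.2 (by_contra fun e => n (h.inter _ (syl_cj h.syl g) e ⟨hx, hg⟩))

theorem N_le (hX : X ≤ S) (n : ¬ X ≤ A) : N(X) ≤ N(S) := fun g hg => by
  obtain ⟨x, hx, n⟩ := SetLike.not_le_iff_exists.1 n
  exact h.norm (hX hx) n (cj_mono hX ((mem_N_iff_cj.1 hg).ge hx))

theorem cent (hL : IsComp L ⊤) : S ⊓ C(L) ≤ A := by
  obtain ⟨g, hg, n⟩ := SetLike.not_le_iff_exists.1 (comp_nn hL (h.syl.inf_subn hL.subn))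
  intro x hx; by_contra e
  refine n (zpowers_le.1 (norm_inf (zpowers_le.2 (h.norm hx.1 e ?_)) (le_norm (zpowers_le.2 hg))))
  exact mem_cj'.2 ⟨x, hx.1, by rw [mem_C.1 hx.2 g hg, mul_inv_cancel_right]⟩

theorem not_le (hF : fit (⊤ : Subgroup G) = ⊥) (hL : IsComp L ⊤) : ¬ S ⊓ L ≤ A := fun k => by
  have ns := ns_of_comp hL hF
  have hT := h.syl.inf_subn hL.subn
  have h0 : S ⊓ L ≠ ⊥ := fun e => ns.not_od (hT.eq_bot_iff.1 e)
  have c : S ≤ C(S ⊓ L) := cent_symm (k.trans h.cen)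
  obtain ⟨U, K, g, -⟩ := G0.gt ns hT le_rfl h0 (inf_le_left.trans c) fun _ _ _ _ m => m
  have nL : S ≤ N(L) := fun s hs => mem_N_iff_cj.2 (((hL.cj_of_mem_normalizer (g := s) (le_N trivial)).eq_or_commutator
    hL).resolve_right fun e => h0 (le_bot_iff.1 (ns.Z_eq.le.trans' (le_inf inf_le_right
      (((cj_eq_self_of_cent (c hs)).ge.trans (cj_mono inf_le_right)).trans (comm_eq_bot_iff.1 e))))))
  refine h.nle fun s hs => ?_
  obtain ⟨t, ht, e⟩ := g.inner s ⟨⟨nL hs, C_le_N (c hs)⟩, C_anti g.le (c hs)⟩ (pg_mem h.syl.pgroup hs)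
    ((comm_eq_bot_iff.2 (cent_symm (zpowers_le.2 (c hs)))).le.trans bot_le)
  simpa using mul_mem (k ht) (h.cent hL ⟨S.mul_mem (S.inv_mem ht.1) hs, e⟩)

theorem main (hF : fit (⊤ : Subgroup G) = ⊥) : ∃ L U K, ⊤ ≤ N(L) ∧ NS L ∧ S ≤ L ∧ BT L S U K := by
  obtain ⟨L, hL⟩ : ∃ L, IsComp L (⊤ : Subgroup G) := by
    by_contra c; push Not at c
    exact h.nle (le_top.trans ((gfit_eq_bot_iff.1 (by rw [gfit_eq, hF, lay_eq_bot_iff.2 c, bot_sup_eq])).le.trans bot_le))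
  have ns := ns_of_comp hL hF
  have hT := h.syl.inf_subn hL.subn
  have e : lay ⊤ = L := le_antisymm (lay_le_iff.2 fun K hK => (hK.eq_or_commutator hL).elim Eq.le fun f =>
    absurd ((inf_le_inf_left _ (comm_eq_bot_iff.1 f)).trans (h.cent hL)) (h.not_le hF hK)) hL.le_lay
  have nL : ⊤ ≤ N(L) := e ▸ le_normalizer_lay ⊤
  have z : ⊤ ⊓ C(L) ≤ ⊥ := by
    have := centralizer_gfit_le_fit (⊤ : Subgroup G)
    rwa [gfit_eq, hF, e, sup_bot_eq] at this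
  have nn := h.N_le inf_le_left (h.not_le hF hL)
  have nT : N(S) ≤ N(S ⊓ L) := norm_inf le_rfl (le_top.trans nL)
  obtain ⟨U, K, gt, alt⟩ := omega_gt ns hT fun x hx g hg _ m => (em (g ∈ N(S))).elim
    (fun k => conj_mem_N (N_le_N_C (nT k)) hx.2) fun k => C_anti inf_le_left (h.cen (by_contra fun n =>
      k (h.norm m.1 n (conj_mem_cj hx.1.1))))
  have l : S ≤ L := fun s hs => by
    obtain ⟨t, ht, c, hc, rfl⟩ := (mem_sup_of_norm (inf_le_right.trans (le_N.trans N_le_N_C))).1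
      (gt.le_sup alt h.syl.pgroup (le_top.trans nL) (le_N.trans nT) (inf_le_right.trans nn) hs)
    rw [mem_bot.1 (z ⟨trivial, hc⟩), mul_one]
    exact ht.2
  rw [inf_eq_left.2 l] at gt alt hT
  rcases alt with b | rfl
  · exact ⟨L, U, K, nL, ns, l, b⟩
  obtain ⟨x, hx, n⟩ := SetLike.not_le_iff_exists.1 h.nle
  obtain ⟨U, K, b⟩ := ti_bt ns hT fun g hg => or_iff_not_imp_right.2 fun k => eq_bot_iff.2 fun y hy => by_contra fun y1 => by
    obtain ⟨a, ha, rfl⟩ := gt.trans y hy.1 y1 x hx (by rintro rfl; exact n (one_mem _))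
    have := h.norm hx n (g := a * g) (by rw [cj_mul]; exact conj_mem_cj hy.2)
    exact k (((N(S)).mul_mem_cancel_left (gt.leK ha).2).1 this)
  exact ⟨L, U, K, nL, ns, l, b⟩

theorem cent1 (hO : Od O) (n : ⊤ ≤ N(O)) (hx : x ∈ S) (k : x ∉ A) : O ⊓ C1(x) ≤ C(S) := fun g hg =>
  zpowers_le.1 (comm_eq_bot_iff.1 (le_bot_iff.1 ((pg_inf_od h.syl.pgroup hO).le.trans' (le_inf
    (comm_le_right (zpowers_le.2 (h.norm hx k (mem_cj'.2 ⟨x, hx, by rw [mem_C1.1 hg.2, mul_inv_cancel_right]⟩))))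
    ((H18.comm_mono (zpowers_le.2 hg.1) le_rfl).trans (comm_le_left (le_top.trans n)))))))

theorem cent_odd {Y : Type u} [Group Y] [Finite Y] {π : G →* Y} {L U K : Subgroup Y} (b : BT L (S.map π) U K)
    (na : ¬ Abel (S.map π)) (hO : Od O) (n : ⊤ ≤ N(O)) : O ≤ C(S) := by
  by_contra c
  obtain ⟨Z, ⟨zl, zc⟩, mx⟩ := exists_maximal_of_wellFoundedGT (fun Z : Subgroup G => Z ≤ S ⊓ A ∧ ¬ O ⊓ C(Z) ≤ C(S))
    ⟨⊥, bot_le, by simpa using c⟩
  have zS : S ≤ C(Z) := cent_symm (zl.trans (inf_le_right.trans h.cen))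
  have nS : S ≤ N(Z) := cent_norm zS
  have nW : O ⊓ C(Z) ≤ N(Z) := cent_norm inf_le_right
  have zO : Z ⊓ O = ⊥ := pg_inf_od (h.syl.pgroup.to_le (zl.trans inf_le_left)) hO
  have key : ∀ x ∈ S, x ∉ Z → O ⊓ C(Z) ⊓ C1(x) ≤ C(S) := fun x hx k => by
    by_cases e : x ∈ A
    · by_contra f
      refine k (mx ⟨sup_le zl (zpowers_le.2 ⟨hx, e⟩), fun f' => f ?_⟩ le_sup_left (mem_sup_right (mem_zpowers x)))
      rwa [C_sup, C_zpowers, ← inf_assoc] at f'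
    · exact (inf_le_inf_right _ inf_le_left).trans (h.cent1 hO n hx e)
  have u : U1 (S ⫽ Z) := fun s hs t ht s2 t2 st => by_contra fun e => zc (comm_eq_bot_iff.1 (le_bot_iff.1 (zO.le.trans'
      (le_inf ((comm_le_iff_quo nW nS).2 ?_) ((H18.comm_mono inf_le_left le_rfl).trans (comm_le_left (le_top.trans n)))))))
  · obtain ⟨x, hx, y, hy, l⟩ : ∃ x ∈ S ⫽ Z, ∃ y ∈ S ⫽ Z, S ⫽ Z ≤ zpowers x ⊔ zpowers y := by
      rcases u1_q u (pg_pi h.syl.pgroup).mim.isPGroup with c | ⟨k, x, y, d⟩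
      · obtain ⟨x, e⟩ := c.gen
        exact ⟨x, e.le (mem_zpowers x), 1, one_mem _, e.ge.trans le_sup_left⟩
      · refine ⟨x, d.xmem, y, d.ymem, fun g hg => (d.gen g hg).elim mem_sup_left fun e => ?_⟩
        simpa using mul_mem (mem_sup_left e) (mem_sup_right (mem_zpowers y) : y ∈ zpowers x ⊔ zpowers y)
    replace hx := (mem_quo nS).1 hx
    replace hy := (mem_quo nS).1 hy
    obtain ⟨x, hx, rfl⟩ := hx
    obtain ⟨y, hy, rfl⟩ := hy
    rw [← mim_zpowers (nS hx), ← mim_zpowers (nS hy), ← mim_sup (zpowers_le.2 (nS hx)) (zpowers_le.2 (nS hy)),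
      quo_le_quo_iff nS (sup_le (zpowers_le.2 (nS hx)) (zpowers_le.2 (nS hy)))] at l
    refine two_gen b na (mem_map_of_mem π hx) (mem_map_of_mem π hy) ((map_mono l).trans ?_)
    rw [Subgroup.map_sup, Subgroup.map_sup, MonoidHom.map_zpowers, MonoidHom.map_zpowers]
    refine sup_le_sup_left (le_inf (map_mono (zl.trans inf_le_left)) ?_) _
    rintro _ ⟨a, ha, rfl⟩
    refine mem_C.2 ?_
    rintro _ ⟨s, hs, rfl⟩
    rw [← map_mul, ← map_mul, mem_C.1 (zS hs) a ha]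
  have f := four_of hs ht (sq1 s2) (sq1 t2) (ne1 s2) (ne1 t2) (Ne.symm e) st
  refine coprime_elem_gen_cent Nat.prime_two f (f.le.trans (mim_norm (norm_inf (le_top.trans n) (nS.trans N_le_N_C))))
    ((od_pi (od_le inf_le_left hO)).mim) fun B hB w hw => ?_
  obtain ⟨v, hv, v1⟩ := exists_ne_one_of_card (p := 2) (k := 1) le_rfl hB.card.ge
  obtain ⟨v, vS, rfl⟩ := (mem_quo nS).1 (f.le (hB.le hv))
  obtain ⟨w, wO, rfl⟩ := (mem_quo nW).1 hw.1
  refine mim_cent (key v vS fun k => v1 (cs_eq_one k)) (mfun_mem_mim ⟨wO, mem_C1_comm.1 (mem_C1.2 ?_)⟩)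
  have m : ⁅v, w⁆ ∈ O := by
    rw [commutatorElement_def]; exact O.mul_mem (conj_mem_N (n trivial) wO.1) (O.inv_mem wO.1)
  exact commutatorElement_eq_one_iff_mul_comm.1 (mem_bot.1 (zO.le ⟨(cs_eq_one_iff (mul_mem (conj_mem le_N (nS vS) (nW wO))
    (inv_mem (nW wO)))).1 ((mfun_comm (nS vS) (nW wO)).trans (commutatorElement_eq_one_iff_mul_comm.2
      (mem_C.1 hw.2 _ hv))), m⟩))

theorem not_solv (hO : oQ 2 (⊤ : Subgroup G) = ⊥) (n : ¬ ⊤ ≤ N(S)) : ¬ Solv (⊤ : Subgroup G) := fun s => by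
  obtain ⟨g, -, hg⟩ := SetLike.not_le_iff_exists.1 n
  have l := (le_inf h.syl.oP_le (syl_cj h.syl g).oP_le).trans (h.inter _ (syl_cj h.syl g) fun e => hg (mem_N_iff_cj.2 e))
  have := centralizer_fit_le_of_solvable s
  rw [fit_eq_oP_of_oQ_eq_bot hO] at this
  exact h.nle ((le_inf le_top (cent_symm (l.trans h.cen))).trans (this.trans l))

end CA
end H1.Ci
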