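import Cfsg.Agent.H1.Ci1
import Cfsg.Agent.H21.SchurCover
import Cfsg.Agent.H24.Rank1
import Cfsg.Agent.S2111
import Cfsg.Agent.S0279
import Cfsg.Agent.S0252
import Cfsg.Agent.S0253

/-! Central Sylow `2`-intersections, part 2: `bt_cases`, `cover`, `Dat` (`O^{2'}(G) = O_2(G) P` with `P` a perfect central
extension of a Bender group), `CA.dat`, `CA.l2`, `CA.four`. -/

set_option autoImplicit false
set_option linter.unusedSectionVars false
set_option linter.unusedVariables false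

namespace H1.Ci
open Subgroup Cfsg H18 H4.Gs
open H17 hiding Subn card_cj card_mul_relIndex cj cj_bot cj_cj_inv cj_fit cj_inf cj_inv_cj cj_mono cj_mul cj_one
  cj_sup conj_mem_cj elem_iff elem_zpowers fit_le fit_top le_phi mem_cj mim_cj mim_fit_le phi phi_le
open scoped commutatorElement MatrixGroups

universe u
variable {G : Type u} [Group G] [Finite G] {A B D E H K L M N O P Q R S T U V W X Y Z : Subgroup G}
  {a b c e g l s t u v w x y z : G}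

theorem bt_cases (ns : NS L) (b : BT L T U K) :
    (Abel T ∧ ∃ (F : Type) (_ : Field F) (_ : Fintype F) (n : ℕ), 2 ≤ n ∧ Fintype.card F = 2 ^ n ∧
      Nonempty (L ≃* PSL(2, F))) ∨
    (¬ Abel T ∧ (Lie.IsoSuzuki L ∨ ∃ (F : Type) (_ : Field F) (_ : Fintype F) (n : ℕ), 2 ≤ n ∧
      Fintype.card F = (2 ^ n) ^ 2 ∧ Nonempty (L ≃* PSU 3 F (2 ^ n)))) := by
  obtain ⟨g, H, D, V, W, t, s, z⟩ := b
  have lt : 2 < Nat.card U := by have := g.four; omega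
  have e : T ⊔ zpowers t = L := (ns.nml (H19.nml_core z)).resolve_left fun e =>
    g.ne_bot (le_bot_iff.1 (g.le.trans (le_sup_left.trans e.le)))
  obtain ⟨c, ⟨a, b⟩ | ⟨a, b, d⟩ | ⟨a, b, d, ω, hω, ζ, hζ, ne, g', hg, x, hx, e'⟩⟩ := H19.concl z lt
  · obtain ⟨F, _, _, c, f⟩ := H19.isoPSL_of z a b
    obtain ⟨n, -, hn⟩ := z.exists_pow
    have eU : U = T := eq_of_le_of_card_ge g.le a.le
    refine .inl ⟨eU.ge.trans g.cent, F, _, _, n, by_contra fun c => ?_, c.trans hn, e ▸ f⟩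
    have := Nat.pow_le_pow_right two_pos (show n ≤ 1 by omega)
    omega
  · exact .inr ⟨b, .inl (e ▸ H19.isoSuzuki_of H19.pillarA z lt c b a d)⟩
  · obtain ⟨F, _, _, n, h1, h2, -, f⟩ := H5.psu_of_omega z ((ns.nml z.toA1.nml_ker).resolve_right fun k =>
      b (g.syl.le.trans (k.ge.trans inf_le_right))) lt (H19.suzIH z) c b a d hω hζ ne hg hx e'
    exact .inr ⟨b, .inr ⟨F, _, _, n, h1, h2, e ▸ f⟩⟩

theorem cover {Γ : Type*} [Group Γ] [Finite Γ] (hΓ : HasCyclicSchurMultiplier Γ 1) (ξ : G →* Γ ⧸ center Γ)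
    (sj : Function.Surjective ξ) (k : ξ.ker ≤ center G) (hp : commutator G = ⊤) :
    Nat.card ξ.ker ∣ Nat.card (center Γ) ∧ (Nat.card ξ.ker = Nat.card (center Γ) → Nonempty (G ≃* Γ)) := by
  obtain ⟨η, -, h⟩ := H21.exists_lift_commutator hΓ (QuotientGroup.mk' (center Γ)) ξ sj k
  have s := MonoidHom.range_eq_top.1 ((h (QuotientGroup.mk'_surjective _)).trans hp)
  have d1 := card_dvd_of_surjective η s
  have d2 := card_subgroup_dvd_card (commutator Γ)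
  have e1 : Nat.card G = Nat.card ξ.ker * (center Γ).index := by
    rw [← ξ.ker.card_mul_index, index_ker, MonoidHom.range_eq_top.2 sj, card_top]; rfl
  have e2 := (center Γ).card_mul_index
  refine ⟨Nat.dvd_of_mul_dvd_mul_right (Nat.pos_of_ne_zero index_ne_zero_of_finite) (e1 ▸ e2 ▸ d1.trans d2), fun e => ?_⟩
  rw [e, e2] at e1
  have e3 : Nat.card (commutator Γ) = Nat.card Γ := Nat.dvd_antisymm d2 (e1 ▸ d1)
  exact ⟨(MulEquiv.ofBijective η ((Nat.bijective_iff_surjective_and_card η).2 ⟨s, e3.trans e1.symm⟩)).symm.trans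
    ((MulEquiv.subgroupCongr (eq_top_of_card_eq _ e3)).trans topEquiv)⟩

/-- `M = B P` of odd index, `B` a central `2`-group, `P` a perfect central extension of `Q` -/
structure Dat {Q : Type*} [Group Q] (S M B P : Subgroup G) (ξ : P →* Q) : Prop where
  nM : M.Normal
  odd : Odd M.index
  pg : IsPGroup 2 B
  SM : S ≤ M
  cB : B ≤ C(M)
  sup : B ⊔ P = M
  perf : commutator P = ⊤
  sj : Function.Surjective ξ
  ker : ξ.ker = center P
  kR : ∀ x : P, (x : G) ∈ sol (⊤ : Subgroup G) → x ∈ center P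
  BR : B ≤ sol ⊤
  cS : ⁅S, S⁆ ≤ P

namespace Dat
variable {Q Q' : Type*} [Group Q] [Group Q'] {ξ : P →* Q} (d : Dat S M B P ξ)
include d

theorem equiv (e : Q ≃* Q') : Dat S M B P (e.toMonoidHom.comp ξ) :=
  { d with
    sj := e.surjective.comp d.sj
    ker := by rw [← d.ker]; ext x; simp [MonoidHom.mem_ker] }

theorem BM : B ≤ M := le_sup_left.trans d.sup.le
theorem PM : P ≤ M := le_sup_right.trans d.sup.le
theorem abel : IsMulCommutative B := abel_iff.1 (d.cB.trans (C_anti d.BM))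
theorem comm : ∀ a ∈ B, ∀ l ∈ P, a * l = l * a := fun a ha l hl => (mem_C.1 (d.cB ha) l (d.PM hl)).symm

theorem dp (o : ¬ 2 ∣ Nat.card ξ.ker) : IsInternalDirectProduct B P M := by
  refine ⟨d.BM, d.PM, d.comm, eq_bot_iff.2 ?_, d.sup⟩
  have : Od (ξ.ker.map P.subtype) := by rwa [Od, card_subtype]
  exact (pg_inf_od d.pg this).le.trans' (le_inf inf_le_left fun x hx =>
    ⟨⟨x, hx.2⟩, d.ker.ge (d.kR ⟨x, hx.2⟩ (d.BR hx.1)), rfl⟩)

theorem iso (o : Nat.card ξ.ker = 1) : Nonempty (P ≃* Q) :=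
  ⟨MulEquiv.ofBijective ξ ⟨(MonoidHom.ker_eq_bot_iff ξ).1 (card_eq_one.1 o), d.sj⟩⟩

end Dat

namespace CA
variable (h : CA S A)
include h

theorem rad_le (ns : ¬ Solv (⊤ : Subgroup G)) : S ⊓ sol ⊤ ≤ A := by
  by_contra n
  have f := (h.syl.inf_normal (sol_le ⊤) (le_top.trans (le_normalizer_sol ⊤))).frattini le_top (le_normalizer_sol ⊤)
  have s : Solv N(S) := solv_of_quo le_rfl (od_solv (by
    rw [Od, card_quo le_rfl]; exact (h.syl.mono le_N le_top).not_dvd_relIndex le_rfl)) (pg_pi h.syl.pgroup).solv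
  have e : N(S) ⊔ sol ⊤ = ⊤ := top_le_iff.1 (f.le.trans (sup_le le_sup_right
    (inf_le_right.trans ((h.N_le inf_le_left n).trans le_sup_left))))
  exact ns (e ▸ s.sup_norm (sol_solvable ⊤) (le_top.trans (le_normalizer_sol ⊤)))

theorem dat (ns : ¬ Solv (⊤ : Subgroup G)) : ∃ (Y : Type u) (_ : Group Y) (_ : Finite Y) (π : G →* Y) (L U K : Subgroup Y),
    π.ker = sol ⊤ ∧ NS L ∧ BT L (S.map π) U K ∧ (oQ 2 ⊤ ≤ C(S) → ∃ (M B P : Subgroup G) (ξ : P →* L), Dat S M B P ξ) := by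
  have nR := le_normalizer_sol (⊤ : Subgroup G)
  have : (sol (⊤ : Subgroup G)).Normal := nml_top_iff.1 ⟨le_top, nR⟩
  obtain ⟨π, hπ⟩ : ∃ π, π = QuotientGroup.mk' (sol (⊤ : Subgroup G)) := ⟨_, rfl⟩
  have sj : Function.Surjective π := hπ ▸ QuotientGroup.mk'_surjective _
  have k : π.ker = sol ⊤ := hπ ▸ QuotientGroup.ker_mk' _
  have hF : fit (⊤ : Subgroup (G ⧸ sol (⊤ : Subgroup G))) = ⊥ := by
    have n : (fit (⊤ : Subgroup (G ⧸ sol (⊤ : Subgroup G)))).Normal := nml_top_iff.1 ⟨le_top, le_normalizer_fit ⊤⟩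
    rw [← map_comap_eq_self_of_surjective sj (fit ⊤), Subgroup.map_eq_bot_iff, k]
    refine (H17.Subn.of_normal le_top (nml_top_iff.2 (n.comap π)).norm).le_sol (solvable_of_map_of_ker π ?_ ?_)
    · rw [map_comap_eq_self_of_surjective sj]; exact fit_solvable ⊤
    · rw [k, inf_eq_left.2 (k.ge.trans (ker_le_comap π _))]; exact sol_solvable ⊤
  obtain ⟨L, U, K, nL, hL, sL, b⟩ := (h.map sj (by rw [k]; exact h.rad_le ns)).main hF
  refine ⟨_, _, inferInstance, π, L, U, K, k, hL, b, fun cO => ?_⟩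
  have nL' : L.Normal := nml_top_iff.1 ⟨le_top, nL⟩
  obtain ⟨M, nM, SM, mn⟩ : ∃ M : Subgroup G, M.Normal ∧ S ≤ M ∧ ∀ N : Subgroup G, N.Normal → S ≤ N → M ≤ N :=
    ⟨normalClosure S, inferInstance, subset_normalClosure, fun N _ h => normalClosure_le_normal h⟩
  have nM' : ⊤ ≤ N(M) := (nml_top_iff.2 nM).norm
  have BR : oP 2 (⊤ : Subgroup G) ≤ sol ⊤ :=
    (H17.Subn.of_normal le_top (le_normalizer_oP 2 ⊤)).le_sol (pg_pi (oP_pgroup 2 ⊤)).solv
  have cF : M ≤ C(fit (⊤ : Subgroup G)) := mn _ (nml_top_iff.1 ⟨le_top, (le_normalizer_fit ⊤).trans N_le_N_C⟩)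
    (cent_symm ((fit_le_oP_sup_oQ 2 ⊤).trans (sup_le ((le_inf h.syl.oP_le BR).trans ((h.rad_le ns).trans h.cen)) cO)))
  have f1 := (H17.Subn.of_normal le_top nR).fit_le_fit
  have zF : M ⊓ sol ⊤ ≤ fit ⊤ := ((le_inf inf_le_right (inf_le_left.trans (cF.trans (C_anti f1)))).trans
    (centralizer_fit_le_of_solvable (sol_solvable ⊤))).trans f1
  have zC : M ⊓ sol ⊤ ≤ C(M) := zF.trans (cent_symm cF)
  have mM : M.map π = L := (hL.nml ⟨map_le_iff_le_comap.2 (mn _ (nL'.comap π) (map_le_iff_le_comap.1 sL)),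
    le_top.trans (nml_top_iff.2 (nM.map π sj)).norm⟩).resolve_left fun e =>
      b.1.ne_bot (le_bot_iff.1 (b.1.le.trans ((map_mono SM).trans e.le)))
  have mP : ⁅M, M⁆.map π = L := by rw [map_commutator, mM, hL.perfect]
  have PM : ⁅M, M⁆ ≤ M := nml_der.le
  have l1 : M ≤ ⁅M, M⁆ ⊔ M ⊓ sol ⊤ := fun m hm => by
    obtain ⟨p, hp, e⟩ := mP.ge (mM.le ⟨m, hm, rfl⟩)
    simpa using mul_mem (mem_sup_left hp : p ∈ ⁅M, M⁆ ⊔ M ⊓ sol ⊤) (mem_sup_right (x := p⁻¹ * m) (T := M ⊓ sol ⊤)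
      ⟨M.mul_mem (M.inv_mem (PM hp)) hm, k.le (by simp [MonoidHom.mem_ker, e])⟩)
  have nP : ⊤ ≤ N(⁅M, M⁆) := norm_comm nM' nM'
  have nP2 := norm_comm nP nP
  have pf : ⁅M, M⁆ ≤ ⁅⁅M, M⁆, ⁅M, M⁆⁆ := (H18.comm_mono l1 le_rfl).trans (comm_sup_le
    ((H18.comm_mono le_rfl l1).trans (comm_sup_le' le_rfl ((comm_eq_bot_iff.2 (cent_symm (zC.trans (C_anti PM)))).le.trans
      bot_le) (le_top.trans nP2) (le_top.trans nP2))) ((comm_eq_bot_iff.2 zC).le.trans bot_le)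
      (le_top.trans nP2) (le_top.trans nP2))
  have nW : ⊤ ≤ N(oP 2 ⊤ ⊔ ⁅M, M⁆) := norm_sup (le_normalizer_oP 2 ⊤) nP
  have nW' : (oP 2 ⊤ ⊔ ⁅M, M⁆).Normal := nml_top_iff.1 ⟨le_top, nW⟩
  refine ⟨M, oP 2 ⊤, ⁅M, M⁆, (π.comp (⁅M, M⁆).subtype).codRestrict L fun x => mP.le ⟨x, x.2, rfl⟩, nM, ?_, oP_pgroup 2 ⊤, SM,
    (le_inf (h.syl.oP_le.trans SM) BR).trans zC, le_antisymm (sup_le (h.syl.oP_le.trans SM) PM) (mn _ nW' ?_), ?_, ?_,
    le_antisymm (fun x hx => ?_) fun x hx => ?_, fun x hx => ?_, BR, H18.comm_mono SM SM⟩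
  · rw [← relIndex_top_right, ← Nat.not_even_iff_odd, even_iff_two_dvd]; exact h.syl.not_dvd_relIndex SM
  · refine (H17.Subn.of_normal (H := oP 2 ⊤ ⊔ ⁅M, M⁆ ⊔ oQ 2 ⊤) le_sup_left (le_top.trans nW)).pgroup_le ?_ h.syl.pgroup
      (SM.trans (l1.trans (sup_le (le_sup_right.trans le_sup_left) (zF.trans ((fit_le_oP_sup_oQ 2 ⊤).trans
        (sup_le_sup_right le_sup_left _))))))
    rw [relIndex_sup_left]
    exact fun e => od_oQ (e.trans (relIndex_dvd_card _ _))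
  · refine map_injective (⁅M, M⁆).subtype_injective ?_
    rw [map_subtype_commutator, ← MonoidHom.range_eq_map, range_subtype]
    exact le_antisymm nml_der.le pf
  · rintro ⟨_, hy⟩
    obtain ⟨p, hp, rfl⟩ := mP.ge hy
    exact ⟨⟨p, hp⟩, rfl⟩
  · exact mem_center_iff.2 fun y => Subtype.ext (mem_C.1 (zC ⟨PM x.2, k.le (congrArg Subtype.val hx :)⟩) y (PM y.2))
  · refine Subtype.ext (mem_bot.1 (hL.Z_eq.le ⟨mP.le ⟨x, x.2, rfl⟩, mem_C.2 fun y hy => ?_⟩))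
    obtain ⟨p, hp, rfl⟩ := mP.ge hy
    exact (map_mul π _ _).symm.trans ((congrArg (fun z : ↥⁅M, M⁆ => π z) (mem_center_iff.1 hx ⟨p, hp⟩)).trans (map_mul π _ _))
  · exact mem_center_iff.2 fun y => Subtype.ext (mem_C.1 (zC ⟨PM x.2, hx⟩) y (PM y.2))

theorem l2 (hO : oQ 2 (⊤ : Subgroup G) = ⊥) (ns : ¬ Solv (⊤ : Subgroup G)) (na : ¬ Abel S) (ab : ⁅S, S⁆ ≤ sol ⊤) :
    ∃ M B P : Subgroup G, M.Normal ∧ Odd M.index ∧ S ≤ M ∧ IsPGroup 2 B ∧ B ≤ C(M) ∧ B ⊔ P = M ∧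
      Nonempty (P ≃* SL(2, ZMod 5)) := by
  obtain ⟨Y, _, _, π, L, U, K, k, hL, b, d⟩ := h.dat ns
  obtain ⟨M, B, P, ξ, d⟩ := d (hO.le.trans bot_le)
  obtain ⟨F, _, _, n, h1, h2, ⟨e⟩⟩ := ((bt_cases hL b).resolve_right fun c => c.1 (abel_iff_der.2 (by
    rw [← map_commutator, Subgroup.map_eq_bot_iff, k]; exact ab))).2
  have ne : Nat.card (center P) ≠ 1 := fun c => na (abel_iff_der.2 (eq_bot_iff.2 fun x hx =>
    mem_bot.2 (congrArg Subtype.val (mem_bot.1 ((card_eq_one.1 c).le (d.kR ⟨x, d.cS hx⟩ (ab hx)))))))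
  have ev : Even (Fintype.card F) := h2 ▸ Nat.even_pow.2 ⟨even_two, by omega⟩
  by_cases c : Fintype.card F = 4
  · obtain ⟨e1⟩ := Cfsg.Agent.S0252.result c
    have : Fact (Nat.Prime 5) := ⟨by norm_num⟩
    obtain ⟨e2⟩ := Cfsg.Agent.S0253.result (ZMod.card 5)
    have d' := d.equiv (e.trans (e1.trans e2.symm))
    obtain ⟨c1, c2⟩ := cover (H24.schur_SL2 (F := ZMod 5) (by simp) (by simp)) _ d'.sj d'.ker.le d'.perf
    rw [d'.ker, H10.card_center_SL2, ZMod.card] at c1 c2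
    exact ⟨M, B, P, d.nM, d.odd, d.SM, d.pg, d.cB, d.sup, c2 (((Nat.dvd_prime Nat.prime_two).1 c1).resolve_left ne)⟩
  have d' := d.equiv e
  have c1 := (cover (H24.schur_SL2 (F := F) (by simpa using c) (by
    rw [Nat.card_eq_fintype_card]; rintro e; rw [e] at ev; exact absurd ev (by decide))) _ d'.sj d'.ker.le d'.perf).1
  rw [d'.ker, H10.card_center_SL2, Nat.coprime_two_left.2 (Nat.Even.sub_odd Fintype.card_pos ev odd_one),
    Nat.dvd_one] at c1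
  exact (ne c1).elim

theorem four (hSU : ∀ (F : Type) [Field F] [Fintype F] (n : ℕ), 2 ≤ n → Fintype.card F = (2 ^ n) ^ 2 →
      HasCyclicSchurMultiplier (SU 3 F (2 ^ n)) 1)
    (ns : ¬ Solv (⊤ : Subgroup G)) (na : ¬ ⁅S, S⁆ ≤ sol ⊤) :
    ∃ (M : Subgroup G), M.Normal ∧ Odd M.index ∧ ∃ A L : Subgroup G, IsMulCommutative ↥A ∧ IsPGroup 2 ↥A ∧
      ((Cfsg.IsInternalDirectProduct A L M ∧
          ((∃ (m : ℕ) (F : Type) (_ : Field F) (_ : Fintype F), 1 ≤ m ∧ Fintype.card F = 2 ^ (2 * m + 1) ∧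
              Nonempty (↥L ≃* ↥(Cfsg.Lie.Sz F (2 ^ (m + 1))))) ∨
            (∃ (n : ℕ) (F : Type) (_ : Field F) (_ : Fintype F), 2 ≤ n ∧ Fintype.card F = 4 ^ n ∧
              (Nonempty (↥L ≃* Cfsg.PSU 3 F (2 ^ n)) ∨ Nonempty (↥L ≃* ↥(Cfsg.SU 3 F (2 ^ n))))))) ∨
        (A ≤ M ∧ L ≤ M ∧ (∀ a ∈ A, ∀ l ∈ L, a * l = l * a) ∧ A ⊔ L = M ∧ Group.IsPerfect ↥L ∧
          Subgroup.center ↥L ≠ ⊥ ∧
          ∃ (F : Type) (_ : Field F) (_ : Fintype F), Fintype.card F = 8 ∧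
            Nonempty (↥L ⧸ Subgroup.center ↥L ≃* ↥(Cfsg.Lie.Sz F 4)))) := by
  obtain ⟨Y, _, _, π, L, U, K, k, hL, b, d⟩ := h.dat ns
  have na' : ¬ Abel (S.map π) := fun c => na (by
    rw [← k, ← Subgroup.map_eq_bot_iff, map_commutator]; exact abel_iff_der.1 c)
  obtain ⟨M, B, P, ξ, d⟩ := d (h.cent_odd b na' od_oQ nO)
  refine ⟨M, d.nM, d.odd, B, P, d.abel, d.pg, ?_⟩
  obtain ⟨F, _, _, m, h1, h2, ⟨e⟩⟩ | ⟨F, _, _, n, h1, h2, ⟨e⟩⟩ := ((bt_cases hL b).resolve_left fun c => na' c.1).2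
  · have d' := d.equiv e
    by_cases c : center P = ⊥
    · have c' := card_eq_one.2 (d'.ker.trans c)
      exact .inl ⟨d'.dp (by rw [c']; decide), .inl ⟨m, F, _, _, h1, h2, d'.iso c'⟩⟩
    obtain rfl : m = 1 := by_contra fun n => c (by
      have := H21.schur_trivial_central (Cfsg.Agent.S2111.result (by omega) h2) _ d'.sj d'.ker.le
      rwa [d'.perf, inf_top_eq, d'.ker] at this)
    exact .inr ⟨d.BM, d.PM, d.comm, d.sup, ⟨d.perf⟩, c, F, _, _, h2,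
      ⟨(QuotientGroup.quotientMulEquivOfEq d'.ker.symm).trans (QuotientGroup.quotientKerEquivOfSurjective _ d'.sj)⟩⟩
  have d' := d.equiv e
  obtain ⟨c1, c2⟩ := cover (hSU F n h1 h2) _ d'.sj d'.ker.le d'.perf
  have c3 := Cfsg.Agent.S0279.result h2 3 le_rfl
  have c4 := c1.trans (c3 ▸ Nat.gcd_dvd_left _ _)
  refine .inl ⟨d'.dp fun c => absurd (c.trans c4) (by decide), .inr ⟨n, F, _, _, h1,
    by rw [h2, ← pow_mul, mul_comm, pow_mul]; rfl, ((Nat.dvd_prime Nat.prime_three).1 c4).imp d'.iso fun c =>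
      c2 (Nat.dvd_antisymm c1 (by rw [c, c3]; exact Nat.gcd_dvd_left _ _))⟩⟩

theorem odd_quo : CA (S.map (QuotientGroup.mk' (oddCore G))) ((S ⊓ A).map (QuotientGroup.mk' (oddCore G))) ∧
    S ⊓ oddCore G = ⊥ ∧ Od (oddCore G) := by
  have o : Od (oddCore G) := by have := od_oQ (H := (⊤ : Subgroup G)); rwa [oQ_top] at this
  have e := pg_inf_od h.syl.pgroup o
  exact ⟨h.map (QuotientGroup.mk'_surjective _) (by rw [QuotientGroup.ker_mk', e]; exact bot_le), e, o⟩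

theorem pl1 (s : Solv (⊤ : Subgroup G)) : PLengthLE 2 1 G := by
  obtain ⟨h', e, o⟩ := h.odd_quo
  have sj := QuotientGroup.mk'_surjective (oddCore G)
  have := solv_top_iff.1 s
  have n := (nml_top_iff.1 ⟨le_top, by_contra fun n => h'.not_solv (oQ_top_quotient G 2) n
    (solv_top_iff.2 inferInstance)⟩).comap (QuotientGroup.mk' (oddCore G))
  rw [comap_map_eq, QuotientGroup.ker_mk', sup_comm] at n
  exact (pl1_top_iff Nat.prime_two).1 (pl1_of_nml_sup nml_top ((piNat_compl_iff Nat.prime_two).2 o) (hall2 h.syl)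
    (nml_top_iff.2 n).norm)

theorem three (ns : ¬ Solv (⊤ : Subgroup G)) (na : ¬ Abel S) (ab : ⁅S, S⁆ ≤ sol ⊤) :
    ∃ (N M : Subgroup G) (_ : N.Normal) (_ : M.Normal) (_ : (N.subgroupOf M).Normal), N < M ∧ Odd (Nat.card ↥N) ∧
      Odd M.index ∧ ∃ A L : Subgroup (↥M ⧸ N.subgroupOf M), IsMulCommutative ↥A ∧ IsPGroup 2 ↥A ∧
        Nonempty (↥L ≃* SL(2, ZMod 5)) ∧ (∀ a ∈ A, ∀ l ∈ L, a * l = l * a) ∧ A ⊔ L = ⊤ := by
  obtain ⟨h', e, o⟩ := h.odd_quo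
  have hO := oQ_top_quotient G 2
  have sj := QuotientGroup.mk'_surjective (oddCore G)
  have k := QuotientGroup.ker_mk' (oddCore G)
  generalize QuotientGroup.mk' (oddCore G) = π at h' sj k
  obtain ⟨M, B, P, nM, od, SM, pg, cB, sup, ⟨f⟩⟩ := h'.l2 hO (fun s => ns (solvable_of_map_of_ker π
    (by rwa [map_top_of_surjective π sj]) (by rw [k, inf_top_eq]; exact od_solv o))) (fun c => na (abel_iff_der.2 (by
      refine eq_bot_iff.2 (e.le.trans' (le_inf nml_der.le ?_))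
      rw [← k, ← Subgroup.map_eq_bot_iff, map_commutator]; exact abel_iff_der.1 c))) (by
      rw [← map_commutator, ← map_top_of_surjective π sj]; exact (map_mono ab).trans (map_sol_le π ⊤))
  have BM : B ≤ M := le_sup_left.trans sup.le
  have PM : P ≤ M := le_sup_right.trans sup.le
  have nM' := nM.comap π
  obtain ⟨φ⟩ := comap_equiv (W := oddCore G) sj (MonoidHom.id M) Function.surjective_id fun g hg =>
    ⟨fun c => Subtype.ext (k.ge c), fun c => k.le (congrArg Subtype.val c :)⟩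
  have eq : ∀ X : Subgroup (G ⧸ oddCore G), X ≤ M → Nonempty (((X.subgroupOf M).map φ.symm.toMonoidHom) ≃* X) :=
    fun X hX => ⟨(φ.symm.subgroupMap _).symm.trans (subgroupOfEquivOfLe hX)⟩
  obtain ⟨eB⟩ := eq B BM
  obtain ⟨eP⟩ := eq P PM
  have := abel_iff.1 (cB.trans (C_anti BM))
  refine ⟨oddCore G, M.comap π, inferInstance, nM', inferInstance, lt_of_le_of_ne (k.ge.trans (ker_le_comap π M))
    fun c => h.nle ((le_inf le_rfl ((map_le_iff_le_comap.1 SM).trans c.ge)).trans (e.le.trans bot_le)),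
    by rwa [← Nat.not_even_iff_odd, even_iff_two_dvd], by rwa [index_comap_of_surjective M sj],
    (B.subgroupOf M).map φ.symm.toMonoidHom, (P.subgroupOf M).map φ.symm.toMonoidHom,
    ⟨⟨fun a b => eB.injective (by rw [map_mul, map_mul]; exact this.1.1 _ _)⟩⟩, pg.of_equiv eB.symm, ⟨eP.trans f⟩, ?_, ?_⟩
  · rintro _ ⟨a, ha, rfl⟩ _ ⟨l, hl, rfl⟩
    rw [← map_mul, ← map_mul]
    exact congrArg _ (Subtype.ext (mem_C.1 (cB ha) l l.2).symm)
  · rw [← Subgroup.map_sup, ← subgroupOf_sup BM PM, sup, subgroupOf_self, map_top_of_surjective _ φ.symm.surjective]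

end CA

theorem main (hSU : ∀ (F : Type) [Field F] [Fintype F] (n : ℕ), 2 ≤ n → Fintype.card F = (2 ^ n) ^ 2 →
      HasCyclicSchurMultiplier (SU 3 F (2 ^ n)) 1)
    (hCI : ∀ S T : Sylow 2 G, S ≠ T → ∃ U : Sylow 2 G,
      (S : Subgroup G) ⊓ (T : Subgroup G) ≤ (Subgroup.center ↥(U : Subgroup G)).map (U : Subgroup G).subtype) :
    (Group.IsSolvable G ∧ Cfsg.PLengthLE 2 1 G) ∨
    (∀ S : Sylow 2 G, IsMulCommutative ↥(S : Subgroup G)) ∨
    (∃ (N M : Subgroup G) (_ : N.Normal) (_ : M.Normal) (_ : (N.subgroupOf M).Normal), N < M ∧ Odd (Nat.card ↥N) ∧ Odd M.index ∧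
      ∃ A L : Subgroup (↥M ⧸ N.subgroupOf M), IsMulCommutative ↥A ∧ IsPGroup 2 ↥A ∧
        Nonempty (↥L ≃* Matrix.SpecialLinearGroup (Fin 2) (ZMod 5)) ∧ (∀ a ∈ A, ∀ l ∈ L, a * l = l * a) ∧ A ⊔ L = ⊤) ∨
    (∃ (M : Subgroup G), M.Normal ∧ Odd M.index ∧ ∃ A L : Subgroup G, IsMulCommutative ↥A ∧ IsPGroup 2 ↥A ∧
      ((Cfsg.IsInternalDirectProduct A L M ∧
          ((∃ (m : ℕ) (F : Type) (_ : Field F) (_ : Fintype F), 1 ≤ m ∧ Fintype.card F = 2 ^ (2 * m + 1) ∧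
              Nonempty (↥L ≃* ↥(Cfsg.Lie.Sz F (2 ^ (m + 1))))) ∨
            (∃ (n : ℕ) (F : Type) (_ : Field F) (_ : Fintype F), 2 ≤ n ∧ Fintype.card F = 4 ^ n ∧
              (Nonempty (↥L ≃* Cfsg.PSU 3 F (2 ^ n)) ∨ Nonempty (↥L ≃* ↥(Cfsg.SU 3 F (2 ^ n))))))) ∨
        (A ≤ M ∧ L ≤ M ∧ (∀ a ∈ A, ∀ l ∈ L, a * l = l * a) ∧ A ⊔ L = M ∧ Group.IsPerfect ↥L ∧
          Subgroup.center ↥L ≠ ⊥ ∧
          ∃ (F : Type) (_ : Field F) (_ : Fintype F), Fintype.card F = 8 ∧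
            Nonempty (↥L ⧸ Subgroup.center ↥L ≃* ↥(Cfsg.Lie.Sz F 4))))) := by
  by_cases ab : ∀ S : Sylow 2 G, IsMulCommutative ↥(S : Subgroup G)
  · exact .inr (.inl ab)
  obtain ⟨S, na⟩ := not_forall.1 ab
  rw [← abel_iff] at na
  have h := ca_of hCI (isSyl_sylow S) na
  by_cases s : Solv (⊤ : Subgroup G)
  · exact .inl ⟨solv_top_iff.1 s, h.pl1 s⟩
  exact .inr (.inr ((em _).imp (h.three s na) (h.four hSU s)))

end H1.Ci
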