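import Cfsg.Prelude.Def_DegreeGraph
import Cfsg.Agent.S0907
import Cfsg.Agent.S0910
import Cfsg.Agent.H8.Cd2
import Cfsg.Agent.H7.Second

/-! The character degrees of a nonsolvable group involve three primes (`Dp3.main`): principal block
orthogonality and Brauer's lemma on prime power degrees in the principal block. -/

set_option autoImplicit false

namespace H1.Dp3
open H5 H6 H7 H8 Cfsg
open scoped ComplexConjugate

universe u

theorem two {G : Type*} [Group G] [Finite G] [IsSimpleGroup G] (hna : ∃ a b : G, a * b ≠ b * a) {p q : ℕ}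
    (hp : p.Prime) (hq : q.Prime) (hd : p ∣ Nat.card G) (h : ∀ r ∈ degreePrimes G, r = p ∨ r = q) : False := by
  classical
  haveI := Fact.mk hp
  haveI := Fintype.ofFinite G
  obtain ⟨M, hM⟩ := exists_isPModular p
  haveI := hM.2.1
  obtain ⟨y, hy⟩ := exists_prime_orderOf_dvd_card' p hd
  have h1 := Cfsg.Agent.S0907.result p M hM _ isPBlock_principalBlock (1 : G) y
    (by simpa using hp.one_lt.ne') (hy ▸ dvd_rfl)
  rw [finsum_mem_eq_finite_toFinset_sum _ (Set.toFinite _),
    ← Finset.add_sum_erase _ _ ((Set.Finite.mem_toFinset _).2 irrOne_mem_principalBlock)] at h1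
  have hq' : (q : ℂ) ≠ 0 := by exact_mod_cast hq.ne_zero
  have h2 : IsIntegral ℤ ((∑ χ ∈ ((Set.toFinite (principalBlock M G)).toFinset).erase (irrOne G),
      (χ : G → ℂ) 1 * conj ((χ : G → ℂ) y)) / q) := by
    rw [Finset.sum_div]
    refine IsIntegral.sum _ fun χ hχ => ?_
    obtain ⟨n1, hb⟩ := Finset.mem_erase.1 hχ
    have hd : q ∣ charDegree (χ : G → ℂ) := by_contra fun c => by
      have e := Nat.eq_prime_pow_of_unique_prime_dvd (p := p) χ.2.charDegree_pos.ne' fun {r} hr d =>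
        (h r ⟨hr, _, ⟨χ, rfl⟩, d⟩).resolve_right fun e => c (e ▸ d)
      exact n1 (Subtype.ext (Cfsg.Agent.S0910.result p M hM hna χ ((Set.Finite.mem_toFinset _).1 hb) _
        (by rw [← χ.2.coe_charDegree, e]; exact Nat.cast_pow _ _)))
    obtain ⟨c, hc'⟩ := hd
    rw [← χ.2.coe_charDegree, hc', Nat.cast_mul, mul_assoc, mul_div_cancel_left₀ _ hq']
    exact (isIntegral_algebraMap (R := ℤ) (x := (c : ℤ))).mul (isIntegral_conj (χ.2.isCharacter.isIntegral y))
  rw [eq_neg_of_add_eq_zero_right h1] at h2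
  have h3 : IsIntegral ℤ (((1 : ℕ) : ℂ) / q) := by simpa [neg_div] using h2.neg
  exact hq.one_lt.ne' (Nat.dvd_one.1 (dvd_of_isIntegral_div hq.ne_zero h3))

/-- three distinct primes divide degrees -/
def T (G : Type*) [Group G] : Prop :=
  ∃ p q r : ℕ, p ≠ q ∧ q ≠ r ∧ p ≠ r ∧ p ∈ degreePrimes G ∧ q ∈ degreePrimes G ∧ r ∈ degreePrimes G

theorem T.mono {G H : Type*} [Group G] [Group H] (h : T H) (s : degreePrimes H ⊆ degreePrimes G) : T G :=
  let ⟨p, q, r, a, b, c, d, e, f⟩ := h
  ⟨p, q, r, a, b, c, s d, s e, s f⟩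

theorem simple {G : Type*} [Group G] [Finite G] [IsSimpleGroup G] (hG : ¬ Group.IsSolvable G) : T G := by
  have hna : ∃ a b : G, a * b ≠ b * a := by
    by_contra c
    push Not at c
    exact hG (IsSimpleGroup.comm_iff_isSolvable.1 c)
  obtain ⟨χ, hχ, n1⟩ : ∃ χ, IsIrrCharacter G χ ∧ charDegree χ ≠ 1 := by
    by_contra c
    push Not at c
    obtain ⟨a, b, h⟩ := hna
    exact h (commutatorElement_eq_one_iff_mul_comm.1 (Subgroup.mem_bot.1 (comm_of_forall_deg c ▸
      Subgroup.commutator_mem_commutator (Subgroup.mem_top a) (Subgroup.mem_top b))))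
  obtain ⟨p, hp, d⟩ := Nat.exists_prime_and_dvd n1
  have m : p ∈ degreePrimes G := ⟨hp, _, ⟨⟨χ, hχ⟩, rfl⟩, d⟩
  have dc := d.trans hχ.charDegree_dvd_card
  by_contra c
  by_cases e : ∃ q ∈ degreePrimes G, q ≠ p
  · obtain ⟨q, hq, n⟩ := e
    exact two hna hp hq.1 dc fun r hr => by_contra fun k =>
      c ⟨p, q, r, n.symm, fun a => k (Or.inr a.symm), fun a => k (Or.inl a.symm), m, hq, hr⟩
  · push Not at e
    exact two hna hp hp dc fun r hr => Or.inl (e r hr)

theorem main (n : ℕ) : ∀ (G : Type u) [Group G] [Finite G], Nat.card G < n → ¬ Group.IsSolvable G → T G := by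
  induction n with
  | zero => exact fun _ _ _ h => absurd h (Nat.not_lt_zero _)
  | succ n ih =>
    intro G _ _ hn hG
    rw [Nat.lt_succ_iff] at hn
    by_cases s : ∃ N : Subgroup G, N.Normal ∧ N ≠ ⊥ ∧ N ≠ ⊤
    · obtain ⟨N, _, n0, n1⟩ := s
      have e := N.card_mul_index
      have a : 1 < Nat.card N := (Subgroup.one_lt_card_iff_ne_bot N).2 n0
      have b : 1 < N.index := Subgroup.one_lt_index_of_ne_top n1
      by_cases c : Group.IsSolvable N
      · refine (ih (G ⧸ N) (by rw [← Subgroup.index_eq_card]; nlinarith) fun d => hG ?_).mono ?_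
        · exact solvable_of_ker_le_range N.subtype (QuotientGroup.mk' N) (by simp)
        · rintro r ⟨hr, _, ⟨χ, rfl⟩, d⟩
          exact ⟨hr, _, ⟨⟨_, χ.2.inflate⟩, rfl⟩, (charDegree_inflate (N := N) χ).symm ▸ d⟩
      · refine (ih N (by nlinarith) c).mono ?_
        rintro r ⟨hr, _, ⟨θ, rfl⟩, d⟩
        haveI := Fintype.ofFinite N
        haveI := Fintype.ofFinite G
        obtain ⟨χ, hχ, k⟩ := exists_irr_over (N := N) θ.2
        obtain ⟨b, -, f⟩ := deg_dvd_of_under hχ θ.2 k
        exact ⟨hr, _, ⟨⟨χ, hχ⟩, rfl⟩, f ▸ d.mul_left b⟩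
    · push Not at s
      haveI : Nontrivial G := by_contra fun c => hG (by
        haveI := not_nontrivial_iff_subsingleton.1 c; infer_instance)
      haveI : IsSimpleGroup G := ⟨fun N hN => or_iff_not_imp_left.2 (s N hN)⟩
      exact simple hG

end H1.Dp3
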