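import Cfsg.Agent.H22.Frobenius
import Cfsg.Agent.H1.Basic
/-! Frobenius' conjecture on the solutions of `x ^ n = 1`: Zemlin's reduction to the composition factors
(`red`, `zemlin`); `ns G n` is the number of solutions. -/
set_option autoImplicit false
namespace H1.Fro
open Subgroup Function Finset
universe u

/-- number of solutions of `x ^ n = 1` -/
noncomputable abbrev ns (G : Type*) [Group G] (n : ℕ) : ℕ := Nat.card {x : G // x ^ n = 1}

/-- exact solution counts are trivial -/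
def Tv (G : Type*) [Group G] : Prop := ∀ n, n ∣ Nat.card G → ns G n = n → n = 1 ∨ n = Nat.card G

theorem ns_equiv {G H : Type*} [Group G] [Group H] (e : G ≃* H) (n : ℕ) : ns G n = ns H n :=
  Nat.card_congr (e.toEquiv.subtypeEquiv fun x => by
    rw [MulEquiv.toEquiv_eq_coe, MulEquiv.coe_toEquiv, ← map_pow, map_eq_one_iff e e.injective])

theorem Tv.equiv {G H : Type*} [Group G] [Group H] (e : G ≃* H) (h : Tv H) : Tv G := fun n a b => by
  rw [Nat.card_congr e.toEquiv] at a ⊢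
  exact h n a (ns_equiv e n ▸ b)

variable {G : Type u} [Group G] [Finite G] {n : ℕ}

theorem ns_pos (n : ℕ) : 0 < ns G n :=
  have : Nonempty {x : G // x ^ n = 1} := ⟨⟨1, one_pow n⟩⟩
  Nat.card_pos

theorem le_ns (h : n ∣ Nat.card G) : n ≤ ns G n := Nat.le_of_dvd (ns_pos n) (H22.frobenius_dvd_card_pow_eq_one h)

theorem ns_sub (H : Subgroup G) (n : ℕ) : ns H n ≤ ns G n :=
  Nat.card_le_card_of_injective (fun x => ⟨x.1.1, congrArg Subtype.val x.2⟩)
    fun _ _ e => Subtype.ext (Subtype.ext (Subtype.mk.inj e))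

theorem coset (N : Subgroup G) [hN : N.Normal] (n : ℕ) (y : G ⧸ N) :
    n.gcd (Nat.card N) ∣ Nat.card {x : G | x ^ n = 1 ∧ (x : G ⧸ N) = y} := by
  rw [Nat.dvd_iff_prime_pow_dvd_dvd]
  intro p k hp hk
  have := Fact.mk hp
  obtain ⟨K, hK⟩ := Sylow.exists_subgroup_card_pow_prime p (hk.trans (Nat.gcd_dvd_right _ _))
  have hH : Nat.card (K.map N.subtype) = p ^ k := by rw [card_map_of_injective (subtype_injective _), hK]
  have le : K.map N.subtype ≤ N := map_subtype_le K
  generalize K.map N.subtype = H at hH le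
  refine H22.dvd_card_of_fibers (Quotient.mk (H22.frobSetoid H)) _ _ fun a ha => ?_
  rw [← hH, ← H22.card_frobSetoid_class H a]
  refine dvd_of_eq (Nat.card_congr (Equiv.subtypeEquivRight fun z => ⟨fun h => ⟨?_, (Quotient.sound h).symm⟩,
    fun h => Quotient.exact h.2.symm⟩))
  obtain ⟨h, hh, v, hv, rfl⟩ := h
  refine ⟨?_, ?_⟩
  · rw [conj_pow, H22.frobU_pow_eq hp hH (hk.trans (Nat.gcd_dvd_left _ _)) hv (by simp [ha.1]), ha.1]
    simp
  · simp only [QuotientGroup.mk_mul, QuotientGroup.mk_inv, (QuotientGroup.eq_one_iff _).2 (le hh),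
      (QuotientGroup.eq_one_iff _).2 (le (H22.frobU_le _ _ hv)), ha.2]
    simp

theorem red (N : Subgroup G) [hN : N.Normal] (hn : n ∣ Nat.card G) (hc : ns G n = n) {d u : ℕ}
    (hd : d = n.gcd (Nat.card N)) (hu : n = d * u) :
    u ∣ Nat.card (G ⧸ N) ∧ ns (G ⧸ N) u = u ∧ ns N d = d := by
  classical
  have := Fintype.ofFinite G
  have := Fintype.ofFinite (G ⧸ N)
  have dN : d ∣ Nat.card N := hd ▸ Nat.gcd_dvd_right _ _
  have d0 : 0 < d := Nat.pos_of_dvd_of_pos dN Nat.card_pos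
  obtain ⟨w, hw⟩ := id dN
  have cop : u.Coprime w := by
    have : Nat.gcd (d * u) (d * w) = d * 1 := by rw [← hu, ← hw, ← hd, mul_one]
    rw [Nat.gcd_mul_left] at this
    exact Nat.eq_of_mul_eq_mul_left d0 this
  have ud : u ∣ Nat.card (G ⧸ N) := by
    rw [card_eq_card_quotient_mul_card_subgroup N, hu, hw, mul_left_comm] at hn
    exact cop.dvd_of_dvd_mul_right (Nat.dvd_of_mul_dvd_mul_left d0 hn)
  let t : Finset (G ⧸ N) := {y | y ^ u = 1}
  have ct : ns (G ⧸ N) u = #t := by rw [ns, Nat.card_eq_fintype_card, Fintype.card_subtype]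
  let fib : G ⧸ N → ℕ := fun y => Nat.card {x : G | x ^ n = 1 ∧ (x : G ⧸ N) = y}
  have lo : ∀ y ∈ t, d ≤ fib y := fun y hy => by
    obtain ⟨x, rfl⟩ := QuotientGroup.mk_surjective y
    have hy : (x : G ⧸ N) ^ u = 1 := (mem_filter.1 hy).2
    obtain ⟨a, a1, a2⟩ := Nat.chineseRemainder cop 1 0
    obtain ⟨e, rfl⟩ := Nat.modEq_zero_iff_dvd.1 a2
    have xu : x ^ u ∈ N := by rwa [← QuotientGroup.eq_one_iff, QuotientGroup.mk_pow]
    have : Nonempty {z : G | z ^ n = 1 ∧ (z : G ⧸ N) = x} := ⟨⟨x ^ (w * e), by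
      have := congrArg Subtype.val (pow_card_eq_one' (x := (⟨_, xu⟩ : N)))
      rw [hw, Subgroup.coe_pow] at this
      rw [← pow_mul, hu, show w * e * (d * u) = u * (d * w) * e by ring, pow_mul, pow_mul, this, Subgroup.coe_one, one_pow], by
      rw [QuotientGroup.mk_pow, pow_eq_pow_iff_modEq.2 (a1.of_dvd (orderOf_dvd_of_pow_eq_one hy)), pow_one]⟩⟩
    exact Nat.le_of_dvd Nat.card_pos (hd ▸ coset N n _)
  have up : ∑ y ∈ t, fib y ≤ n := by
    rw [← hc, ns, Nat.card_eq_fintype_card, Fintype.card_subtype,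
      card_eq_sum_card_fiberwise (f := fun x : G => (x : G ⧸ N)) (t := univ) fun _ _ => mem_univ _]
    refine (sum_le_sum_of_subset (subset_univ t)).trans (sum_le_sum fun y _ => le_of_eq ?_)
    simp only [fib, Set.coe_setOf, Nat.card_eq_fintype_card, Fintype.card_subtype, filter_filter]
  have l1 := sum_le_sum lo
  have l2 := le_ns ud
  rw [sum_const, smul_eq_mul, ← ct] at l1
  have e : ns (G ⧸ N) u = u := le_antisymm (Nat.le_of_mul_le_mul_right (by nlinarith) d0) l2
  refine ⟨ud, e, le_antisymm ?_ (le_ns dN)⟩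
  have := (sum_eq_sum_iff_of_le lo).1 (by rw [sum_const, smul_eq_mul, ← ct]; nlinarith) 1 (by simp [t])
  refine le_of_le_of_eq (Nat.card_le_card_of_injective (β := {x : G | x ^ n = 1 ∧ (x : G ⧸ N) = 1})
    (fun x => ⟨x.1.1, by rw [hu, pow_mul, ← Subgroup.coe_pow, x.2]; simp, (QuotientGroup.eq_one_iff _).2 x.1.2⟩)
    fun _ _ e => Subtype.ext (Subtype.ext (Subtype.mk.inj e))) this.symm

theorem mem_iff {H : Subgroup G} (h : Nat.card H = n) (hc : ns G n = n) (x : G) : x ∈ H ↔ x ^ n = 1 := by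
  have s : (H : Set G) ⊆ {x | x ^ n = 1} := fun x hx => h ▸ congrArg Subtype.val (pow_card_eq_one' (x := (⟨x, hx⟩ : H)))
  exact Set.ext_iff.1 (Set.eq_of_subset_of_ncard_le s (le_of_eq (hc.trans h.symm))) x

theorem normal_of {H : Subgroup G} (h : Nat.card H = n) (hc : ns G n = n) : H.Normal :=
  ⟨fun x hx g => by rw [mem_iff h hc] at hx ⊢; simp [conj_pow, hx]⟩

/-- all simple quotients of subnormal subgroups have only trivial exact counts -/
def CF (G : Type u) [Group G] : Prop :=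
  ∀ H : Subgroup G, H.IsSubnormal → ∀ (X : Type u) [Group X] (f : H →* X), Surjective f → IsSimpleGroup X → Tv X

omit [Finite G] in
theorem CF.sub (h : CF G) (N : Subgroup G) [hN : N.Normal] : CF N := fun H a X _ f s b =>
  h _ (a.trans' hN.isSubnormal) X (f.comp (H.equivMapOfInjective _ N.subtype_injective).symm.toMonoidHom)
    (s.comp (MulEquiv.surjective _)) b

omit [Finite G] in
theorem CF.quot (h : CF G) (N : Subgroup G) [hN : N.Normal] : CF (G ⧸ N) := fun H a X _ f s b =>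
  h _ (a.comap (QuotientGroup.mk' N)) X (f.comp ((QuotientGroup.mk' N).subgroupComap H))
    (s.comp (MonoidHom.subgroupComap_surjective_of_surjective _ _ (QuotientGroup.mk'_surjective N))) b

theorem zemlin (m : ℕ) : ∀ (G : Type u) [Group G] [Finite G], Nat.card G = m → CF G →
    ∀ n, n ∣ Nat.card G → ns G n = n → ∃ H : Subgroup G, Nat.card H = n := by
  induction m using Nat.strong_induction_on with
  | _ m ih =>
  intro G _ _ hm h n hn hc
  by_cases s : ∀ N : Subgroup G, N.Normal → N = ⊥ ∨ N = ⊤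
  · rcases subsingleton_or_nontrivial G with k | k
    · exact ⟨⊥, by rw [card_bot, eq_comm, ← Nat.dvd_one, ← Nat.card_unique (α := G)]; exact hn⟩
    rcases h ⊤ .top G (Subgroup.subtype ⊤) (fun x => ⟨⟨x, mem_top x⟩, rfl⟩) ⟨s⟩ n hn hc with rfl | rfl
    exacts [⟨⊥, card_bot⟩, ⟨⊤, card_top⟩]
  have q : ∀ (N : Subgroup G) [N.Normal], N ≠ ⊥ → ∀ u, n = n.gcd (Nat.card N) * u →
      ∃ H : Subgroup G, H.Normal ∧ N ≤ H ∧ Nat.card H = u * Nat.card N := fun N _ b u hu => by
    obtain ⟨a1, a2, -⟩ := red N hn hc rfl hu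
    obtain ⟨K, hK⟩ := ih _ (by
      have := card_eq_card_quotient_mul_card_subgroup N
      have := (one_lt_card_iff_ne_bot N).2 b
      have : 0 < Nat.card (G ⧸ N) := Nat.card_pos
      nlinarith) (G ⧸ N) rfl (h.quot N) u a1 a2
    have := normal_of hK a2
    exact ⟨K.comap (QuotientGroup.mk' N), inferInstance, fun x hx => by
      simp [(QuotientGroup.eq_one_iff _).2 hx], by rw [H1.card_comap_mk', hK]⟩
  have r : ∀ (N : Subgroup G) [N.Normal], N ≠ ⊤ → ∀ d, d ∣ Nat.card N → ns N d = d →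
      ∃ H : Subgroup N, Nat.card H = d := fun N _ b d h1 h2 =>
    ih _ (hm ▸ lt_of_le_of_ne (card_le_card_group N) (mt (card_eq_iff_eq_top N).1 b)) N rfl (h.sub N) d h1 h2
  push Not at s
  obtain ⟨N, hN, b, t⟩ := s
  obtain ⟨u, hu⟩ := Nat.gcd_dvd_left n (Nat.card N)
  obtain ⟨H, hH, le, cH⟩ := q N b u hu
  have dN := Nat.gcd_dvd_right n (Nat.card N)
  by_cases e : H = ⊤
  swap
  · have nH : n ∣ Nat.card H := by rw [cH, hu, mul_comm u]; exact Nat.mul_dvd_mul_right dN u
    obtain ⟨K, hK⟩ := r H e n nH (le_antisymm ((ns_sub H n).trans hc.le) (le_ns nH))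
    exact ⟨K.map H.subtype, by rw [card_map_of_injective (subtype_injective _), hK]⟩
  obtain ⟨-, -, a3⟩ := red N hn hc rfl hu
  obtain ⟨K, hK⟩ := r N t _ dN a3
  have : (K.map N.subtype).Normal := ⟨by
    rintro _ ⟨x, hx, rfl⟩ g
    refine ⟨⟨_, hN.conj_mem _ x.2 g⟩, (mem_iff hK a3 _).2 (Subtype.ext ?_), rfl⟩
    simp [conj_pow, ← Subgroup.coe_pow, (mem_iff hK a3 _).1 hx]⟩
  have cK : Nat.card (K.map N.subtype) = n.gcd (Nat.card N) := by rw [card_map_of_injective (subtype_injective _), hK]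
  by_cases k : K.map N.subtype = ⊥
  · rw [k, card_bot] at cK
    rw [← cK, one_mul] at hu
    rw [e, card_top, ← hu, ← N.index_mul_card] at cH
    have i := Nat.eq_of_mul_eq_mul_right Nat.card_pos cH
    obtain ⟨M, hM⟩ := exists_right_complement'_of_coprime (N := N) (by rw [i]; exact Nat.Coprime.symm cK.symm)
    exact ⟨M, by rw [← hM.symm.index_eq_card, i]⟩
  obtain ⟨M, -, -, c⟩ := q _ k u (by rw [cK, Nat.gcd_eq_right (Nat.gcd_dvd_left _ _)]; exact hu)
  exact ⟨M, by rw [c, cK, mul_comm, ← hu]⟩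

end H1.Fro
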